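import Cfsg.Agent.Lib.MD.DatE6
import Cfsg.Agent.Lib.MD.ArE6

/-!
The character value on a long root element, and its centraliser in E₆(q).
-/

set_option autoImplicit false
set_option linter.unusedSectionVars false
set_option maxRecDepth 100000

namespace Cfsg.Lib.MD

open Module Cfsg.Lib.Sz Cfsg.Lib.RepDeg Cfsg.Lib.CharDeg Cfsg.Lib.Chev Cfsg.Lib.Chev.RootSys
  Cfsg.Lib.Char Cfsg.Lie

section

variable {ι Φ : Type} [Fintype ι] [DecidableEq ι] [Fintype Φ] {R : RootSys ι Φ}
  {F : Type*} [Field F] [Finite F] {G : Type*} [Group G] [Finite G]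

theorem RG.trace_x {S : RG R F G} {V : Type*} [AddCommGroup V] [Module ℂ V] [FiniteDimensional ℂ V]
    {ρ : G →* End ℂ V} {ψ : AddChar F ℂ} (hψ : ψ ≠ 1) {β : Φ} (hβ : Lg R β) :
    LinearMap.trace ℂ V (ρ (S.x β 1)) = finrank ℂ V - Nat.card F * S.D ρ ψ β := by
  classical
  have := Fintype.ofFinite F
  have k : ∀ t, LinearMap.trace ℂ V (ρ (S.x β t)) =
      finrank ℂ (S.W ρ ψ β 0) + (∑ l, ψ (l * t) - 1) * S.D ρ ψ β := fun t => by
    have h := trace_eq_sum_wt (ι := Unit) hψ ρ (x := fun u => S.x β (u ()))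
      (fun u v => S.x_add β hβ _ _) fun _ => t
    rw [h, Fintype.sum_equiv (Equiv.funUnique Unit F) _
      (fun l => ψ (l * t) * (finrank ℂ (S.W ρ ψ β l) : ℂ)) fun a => ?_,
      ← Finset.add_sum_erase _ _ (Finset.mem_univ 0), ← Finset.add_sum_erase _ _ (Finset.mem_univ 0),
      Finset.sum_congr rfl fun l hl => by rw [RG.finrank_W hβ (Finset.mem_erase.1 hl).1],
      ← Finset.sum_mul]
    · simp
    have e : (wt (fun u : Unit → F => ρ (S.x β (u ()))) fun u => ψ (a ⬝ᵥ u)) = S.W ρ ψ β (a ()) :=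
      Submodule.ext fun v => ⟨fun h t => by simpa [dotProduct, mul_comm] using h fun _ => t,
        fun h u => by simpa [dotProduct, mul_comm] using h (u ())⟩
    rw [e, show a ⬝ᵥ (fun _ => t) = a () * t by simp [dotProduct]]
    rfl
  have h0 := k 0
  have h1 : S.x β 0 = 1 := by simpa using S.x_add β hβ 0 0
  rw [h1, map_one, LinearMap.trace_one] at h0
  rw [k 1, h0]
  simp [AddChar.sum_eq_zero_of_ne_one hψ]
  ring

theorem dvd_card_centralizer {C : ChevSys R F G} (hF : C.Faithful) {θ : Φ} (h : R.IsTop θ) {J : Set ι}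
    (hJ : ∀ i ∈ J, R.pair (R.simple i) θ = 0) {p : ℕ} (hp : p.Prime) (h1 : p ∣ R.poin J (Nat.card F))
    (h2 : ¬ p ∣ Nat.card F - 1) : p ∣ Nat.card (Subgroup.centralizer {C.x θ 1}) := by
  have := Fact.mk hp
  obtain ⟨⟨g, hg⟩, h3⟩ := exists_prime_orderOf_dvd_card' (G := C.P J) p (hF.card_P J ▸ h1.mul_left _)
  rw [Subgroup.orderOf_mk] at h3
  obtain ⟨c, hc⟩ : ∃ c : Fˣ, ∀ t, g * C.x θ t * g⁻¹ = C.x θ (c * t) := by
    rw [C.P_eq, C.mem_H_sup_iff] at hg
    obtain ⟨k, hk, u, hu, rfl⟩ := hg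
    obtain ⟨c, hc⟩ := ChevSys.exists_conj_top h (C.H_le_B hk)
    refine ⟨c, fun t => ?_⟩
    have := ChevSys.commute_top h t (PreSys.XS_le.2 (fun r hr v => by
      rcases fJ_nonneg_iff.1 hr with h4 | h4
      · exact Subgroup.mem_sup_left (C.x_mem_U h4 v)
      · exact Subgroup.mem_sup_right (C.x_mem (S := {r | R.pair r θ = 0})
          (pair_eq_zero_of_inJ fun i hi => h4 i fun e => hi (hJ i e)) v)) hu)
    rw [← hc, mul_assoc k, this.eq]
    group
  have h4 : ∀ n : ℕ, g ^ n * C.x θ 1 * (g ^ n)⁻¹ = C.x θ (c ^ n) := fun n => by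
    induction n with
    | zero => simp
    | succ n ih => rw [pow_succ' (c : F), ← hc, ← ih, pow_succ']; group
  have h5 : c ^ p = 1 := Units.ext (hF.x_inj (r := θ) (by
    rw [Units.val_pow_eq_pow_val, ← h4, ← h3, pow_orderOf_eq_one]; simp))
  have h6 : c = 1 := by
    rw [← orderOf_eq_one_iff]
    refine ((Nat.dvd_prime hp).1 (orderOf_dvd_of_pow_eq_one h5)).resolve_right fun e => h2 ?_
    rw [← e, ← Nat.card_units]
    exact orderOf_dvd_natCard c
  rw [← h3]
  refine Subgroup.orderOf_dvd_natCard _ (Subgroup.mem_centralizer_singleton_iff.2 ?_)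
  rw [← mul_inv_eq_iff_eq_mul, hc, h6]
  simp

end

/-- Orbits for a parabolic subgroup of type A4. -/
def orbA4 : List (ℕ × ℕ × List (ℕ × ℕ)) :=
  [(4, 9013384, [(9013384, 0), (9934984, 1), (9992600, 2), (9996185, 3), (9996439, 4)]),
   (3, 8951944, [(8951944, 0), (9009560, 1), (9013145, 2), (9013399, 3)]),
   (2, 8948104, [(8948104, 0), (8951689, 1), (8951943, 2)]), (0, 8947849, [(8947849, 0), (8948103, 1)])]

theorem dvd_poinA4 (q : ℕ) : q ^ 4 + q ^ 3 + q ^ 2 + q + 1 ∣
    mE6.poin {i | i.val ∈ orbA4.map Prod.fst} q := by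
  have h : IsCartan mE6 cartanE6 := isCartanE6 checkedE6
  rw [(h.poin_of_chainChk (B := [-254, -4064, -3585, -57616, -921600, 2031616]) (S := orbA4)
    (by decide +kernel) q).2]
  simp only [orbA4, List.map, List.prod_cons, List.sum_cons, List.sum_nil]
  exact Dvd.dvd.mul_right (dvd_of_eq (by ring)) _

theorem boundE6 {F : Type*} [Field F] [Fintype F] (k : ℕ)
    (ρ : Representation ℂ (chevE6.group F) (Fin k → ℂ)) (hρ : ρ.IsIrreducible) (hk : 2 ≤ k) :
    Fintype.card F * (Fintype.card F ^ 6 + Fintype.card F ^ 3 + 1) * (Fintype.card F ^ 4 + 1) ≤ k := by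
  have hl : ∀ r s, mE6.ln r = mE6.ln s := fun r s =>
    have h : ∀ r, mE6.ln r = 1 := by decide +kernel
    (h r).trans (h s).symm
  let C : ChevSys mE6 F (chevE6.group F) := checkedE6.gsys F
  have hF : C.Faithful := checkedE6.gsys_faithful F
  have hT : (show ChevTab mE6 from checkedE6.T).StrongComm C.x := checkedE6.gsys_strongComm F
  have htop : C.grp = ⊤ := checkedE6.gsys_grp F
  obtain ⟨ψ, hψ⟩ := exists_addChar_ne_one F
  obtain ⟨r, t, h1⟩ := exists_x_ne_one htop (exists_ne_one ρ hρ (by simpa using hk))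
  let S := chevRG hF hT hl (checkedE6.noA1 (by simp))
  have h2 := RG.bound (S := S) hψ combE6
    (fun r s k e _ => chev_gen hT hl r s k e) (lg_of hl r) h1 decE6 (fun β _ => lg_of hl β) sumE6
  have h3 : k ∣ Nat.card (chevE6.group F) := (isIrrCharacter_character ρ).degree_dvd_card (by simp)
  have h4 := hF.card_grp_mul (checkedE6.gsys_adjoint F)
  rw [htop, Subgroup.card_top, Fintype.card_fin, Fintype.card_fin, Nat.card_eq_fintype_card (α := F)] at h4
  have h6 : 2 ≤ Fintype.card F := Fintype.one_lt_card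
  erw [poinE6 checkedE6 (by omega)] at h4
  have h5 := (h3.mul_left _).trans h4.dvd
  have h10 := (isIrrCharacter_character ρ).isIntegral_centralChar (C.x 71 1)
  have h11 := RG.trace_x (S := S) (ρ := ρ) hψ (lg_of hl 71)
  rw [RG.D_const hψ combE6 (lg_of hl 71), ← RG.D_const hψ combE6 (lg_of hl r)] at h11
  rw [centralChar_def, Representation.char_one, show ρ.character (C.x 71 1) = _ from h11] at h10
  have h12 := fun h => dvd_card_centralizer hF (θ := 71) (by unfold RootSys.IsTop; decide +kernel)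
    (J := {i | i.val ∈ orbA4.map Prod.fst}) (by simp only [Set.mem_ofPred_eq]; decide +kernel)
    (p := 31) (by norm_num) (Dvd.dvd.trans h (dvd_poinA4 _))
  have h13 := (Subgroup.centralizer {C.x 71 1}).index_mul_card
  simp only [finrank_fin_fun, Nat.card_eq_fintype_card (α := F)] at h2 h10 h12
  by_contra! h7
  have hq : IsPrimePow (Fintype.card F) := FiniteField.isPrimePow_card F
  generalize Fintype.card F = q at *
  obtain ⟨q, rfl⟩ := Nat.exists_eq_add_of_le' h6
  rcases h2 with ⟨d, h8, h9⟩ | ⟨h9, h8⟩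
  · obtain ⟨e, rfl⟩ := Nat.exists_eq_add_of_le (Nat.le_of_mul_le_mul_left
      (show (q + 2) * (2 * (q + 2) ^ 9) ≤ _ from le_of_eq_of_le (by ring) h8) (by omega))
    refine absurd (h9.trans_lt h7) (not_lt.2 ?_)
    rw [show q + 2 - 1 = q + 1 from rfl]
    ring_nf
    omega
  have h14 := arithE6 hq (le_trans (le_of_eq (by
    rw [show q + 2 - 1 = q + 1 from rfl]
    simp only [dE6, List.map, List.sum_cons, List.sum_nil]
    ring)) (Nat.add_le_add_right h8 6)) (by simpa [mul_assoc] using h7) h5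
  rw [h9] at h10
  have h15 := int_dvd_of_isIntegral_div (a := (Subgroup.centralizer {C.x 71 1}).index *
    (k - (q + 2 : ℕ) * (q + 2 : ℕ) ^ 10)) (b := k) (by omega) (by exact_mod_cast h10)
  have h16 : 31 ∣ (Subgroup.centralizer {C.x 71 1}).index := by
    rcases h14 with ⟨e, rfl⟩ | ⟨e, rfl⟩ <;> rw [e] at h15 <;> omega
  have h17 := fun h h' => ((h13 ▸ mul_dvd_mul h16 (h12 h h')).mul_left _).trans h4.dvd
  rcases h14 with ⟨e, -⟩ | ⟨e, -⟩ <;> rw [e] at h17 <;> revert h17 <;> decide +kernel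

end Cfsg.Lib.MD
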