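import Cfsg.Agent.Lib.MD.G2B
import Cfsg.Agent.Lib.Twisted.Count

/-!
Representations of G₂(q) for q a power of 3.
-/

set_option autoImplicit false
set_option linter.unusedSectionVars false
set_option maxRecDepth 100000

namespace Cfsg.Lib.MD.G2

open Module Cfsg.Lie Cfsg.Lib.Sz Cfsg.Lib.RepDeg Cfsg.Lib.CharDeg Cfsg.Lib.Chev Cfsg.Lib.Chev.RootSys
  Cfsg.Lib.Twisted Polynomial

variable {F : Type*} [Field F] {V : Type*} [AddCommGroup V] [Module ℂ V]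
  {ρ : chevG2.group F →* End ℂ V} {ψ : AddChar F ℂ} {r s k : Fin 12} {l l' m m' t u : F} {v : V}
  {Z Z' P : List (Fin 12)} {ls : List F} {N : Submodule ℂ V}

variable (ρ ψ) in
/-- The joint eigenspace is not zero. -/
def NZ (Z P : List (Fin 12)) (ls : List F) : Prop := ∃ v ∈ W ρ ψ Z P ls, v ≠ 0

theorem NZ.n (h : NZ ρ ψ Z P ls) (i : Fin 2) (Z' P' : List (Fin 12))
    (hZ : (∀ s ∈ Z', ∃ r ∈ Z, wG i r = s) ∧ P.map (wG i) = P' := by decide +kernel) :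
    NZ ρ ψ Z' P' (List.zipWith (sg i) P ls) :=
  h.elim fun _ h => ⟨_, nW i Z' P' h.1 hZ, rho_ne_zero _ h.2⟩

theorem NZ.tor1 (h : NZ ρ ψ Z [r] [l]) (hl : l ≠ 0) (hl' : l' ≠ 0) : NZ ρ ψ Z [r] [l'] := by
  obtain ⟨γ, c, h1⟩ := G2.tor1 (ρ := ρ) (ψ := ψ) r hl hl'
  exact h.elim fun _ h => ⟨_, h1 Z _ h.1, rho_ne_zero _ h.2⟩

theorem NZ.tor (h : NZ ρ ψ Z [r, s] [l, m]) (γ : Fin 12) (hl : l ≠ 0) (hl' : l' ≠ 0)
    (h' : mG2.pair γ r = 1 ∧ mG2.pair γ s = 0 := by decide +kernel) : NZ ρ ψ Z [s, r] [m, l'] :=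
  h.elim fun _ h => (tor2 γ hl hl' h.1 h').elim fun g hg => ⟨_, hg, rho_ne_zero g h.2⟩

theorem NZ.mono (h : NZ ρ ψ Z P ls) (Z' P' : List (Fin 12)) (ls' : List F)
    (h' : ∀ v ∈ W ρ ψ Z P ls, v ∈ W ρ ψ Z' P' ls' := by simp +contextual [mem_W]) : NZ ρ ψ Z' P' ls' :=
  h.elim fun v h => ⟨v, h' v h.1, h.2⟩

variable [Finite F] [FiniteDimensional ℂ V] [Finite (chevG2.group F)]

theorem NZ.pos (h : NZ ρ ψ Z P ls) : 0 < finrank ℂ (W ρ ψ Z P ls) := pos_iff.2 h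

theorem NZ.heis (h : NZ ρ ψ Z P ls)
    (e : finrank ℂ (W ρ ψ Z P ls) = Nat.card F * finrank ℂ ↥(W ρ ψ Z P ls ⊓ Ev ρ ψ r 0)) :
    NZ ρ ψ (r :: Z) P ls ∧ Nat.card F ≤ finrank ℂ (W ρ ψ Z P ls) := by
  have := Nat.pos_of_mul_pos_left (e ▸ h.pos)
  exact ⟨pos_iff.1 (W_zero (ρ := ρ) ▸ this), e ▸ Nat.le_mul_of_pos_right _ this⟩

variable (hψ : ψ ≠ 1)
include hψ

theorem NZ.ev (h : NZ ρ ψ Z P ls) (r : Fin 12) (hr : ∀ t, Iv ρ (W ρ ψ Z P ls) (x r t)) :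
    ∃ l, NZ ρ ψ Z (r :: P) (l :: ls) := by
  obtain ⟨v, hv, h0⟩ := h
  simpa only [W_cons] using! exists_ev hψ r hr hv h0

theorem exists_top (h : ρ (x 11 t) ≠ 1) : ∃ l ≠ 0, NZ ρ ψ [] [11] [l] := by
  obtain ⟨v, hv⟩ := DFunLike.ne_iff.1 h
  simpa only [W_cons] using! exists_ev_ne hψ 11 (N := W ρ ψ [] [] []) (v := v)
    (iv_W false (by simp) 11 [] []) (by simp [mem_W]) fun e => hv (by simpa using e t)

theorem heis_top (hl : l ≠ 0) (h : N ≤ Ev ρ ψ 11 l) (h1 : ∀ t, Iv ρ N (x 10 t)) (h2 : ∀ t, Iv ρ N (x 6 t)) :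
    finrank ℂ N = Nat.card F * finrank ℂ ↥(N ⊓ Ev ρ ψ 10 0) :=
  heis1 hψ 10 6 11 1 (by simp) hl h h1 h2

theorem top_bound {B : ℕ} (h : ∀ l ≠ 0, B ≤ finrank ℂ (W ρ ψ [11] [10] [l])) :
    (Nat.card F - 1) * (Nat.card F * B + B) + finrank ℂ (W ρ ψ [10, 11] [] []) ≤ finrank ℂ V := by
  have h1 := filt (ρ := ρ) hψ 11 (Z := []) (P := []) (ls := []) (d := Nat.card F * B) fun l hl => by
    rw [heis_top hψ hl (fun v => by simp +contextual [mem_W]) (iv_W false (by simp) 10 [] [11])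
      (iv_W false (by simp) 6 [] [11]), W_zero, dim_tor [10] 11 hl (sg_ne (i := 1) (r := 10) hl)]
    exact Nat.mul_le_mul_left _ ((h l hl).trans (finrank_le_of_map ρ _ fun v hv => (nW 1 [10] [11] hv :)))
  have h2 := filt (ρ := ρ) hψ 10 (Z := [11]) (P := []) (ls := []) h
  rw [W_nil, finrank_top] at h1
  rw [mul_add]
  omega

variable (h3 : (3 : F) = 0)
include h3

omit hψ in
theorem cube_surj (z : F) : ∃ t, t ^ 3 = z :=
  Finite.surjective_of_injective (f := fun t : F => t ^ 3) (fun a b (e : a ^ 3 = b ^ 3) =>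
    sub_eq_zero.1 (pow_eq_zero_iff three_ne_zero |>.1 (by linear_combination e + (a * b ^ 2 - a ^ 2 * b) * h3))) z

theorem heis87 (hl : l ≠ 0) (h : N ≤ Ev ρ ψ 9 l) (h1 : ∀ t, Iv ρ N (x 8 t)) (h2 : ∀ t, Iv ρ N (x 7 t)) :
    finrank ℂ N = Nat.card F * finrank ℂ ↥(N ⊓ Ev ρ ψ 8 0) :=
  heisN hψ 8 7 h1 h2 fun a ha z => ⟨-z / (a * l), fun v hv => by
    rw [← rho_mul, sw 7 8 [(9, -2, 1, 1), (10, -3, 2, 1), (11, 3, 1, 2)], rho_mul, rho_mul]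
    simp only [List.map, List.prod_cons, List.prod_nil, Int.cast_neg, Int.cast_ofNat, h3, neg_zero, zero_mul,
      x_zero, mul_one, mem_Ev.1 (h hv), map_smul]
    congr 2
    field_simp
    linear_combination -z * h3⟩

theorem exists_pair (hq : 3 < Nat.card F) (h : ρ (x 11 t) ≠ 1) :
    ∃ l ≠ 0, ∃ m ≠ 0, NZ ρ ψ [] [9, 11] [m, l] := by
  by_contra! h1
  have k1 : ∀ l ≠ 0, ∀ v ∈ Ev ρ ψ 11 l, v ∈ Ev ρ ψ 9 0 := fun l hl v hv => by
    by_contra h2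
    obtain ⟨m, hm, h4⟩ := exists_ev_ne hψ 9 (N := W ρ ψ [] [11] [l]) (iv_W false (by simp) 9 [] [11])
      (by simpa [mem_W]) h2
    exact h1 l hl m hm (by rwa [W_cons] at h4)
  have k2 : ∀ l ≠ 0, ∀ v ∈ Ev ρ ψ 11 l, v ∈ Ev ρ ψ 8 0 := fun l hl v hv =>
    nE0 0 8 (k1 _ (sg_ne hl) _ (nE 0 11 hv))
  have k3 : ∀ l ≠ 0, ∀ v ∈ Ev ρ ψ 10 l, v ∈ Ev ρ ψ 7 0 := fun l hl v hv =>
    nE0 1 7 (k2 _ (sg_ne hl) _ (nE 1 11 hv))
  obtain ⟨l, hl, h2⟩ := exists_top hψ h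
  obtain ⟨v, hv, h0⟩ := (h2.heis (heis_top hψ hl (fun v => by simp +contextual [mem_W])
    (iv_W false (by simp) 10 [] [11]) (iv_W false (by simp) 6 [] [11]))).1
  obtain ⟨h4, h5⟩ : v ∈ Ev ρ ψ 10 0 ∧ v ∈ Ev ρ ψ 11 l := by simpa [mem_W] using hv
  have k4 : ∀ u ≠ 0, ∀ t, ρ (x 7 t) v = ψ (-(u ^ 2 * l) * t ^ 3) • v := fun u hu t => by
    refine apply_injective ρ (x 6 u) ?_
    rw [sw76 (k2 l hl v h5) (k1 l hl v h5) h4 h5, mem_Ev.1 (k3 _ (by simp [hu, hl]) _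
      (ev_of h4 fun t => sw1 6 10 11 1 h5)), map_smul, smul_smul, ← ψ.map_add_eq_mul]
    congr 2
    ring
  obtain ⟨c, hc⟩ := exists_sq_ne_one hq
  have := eq_of_addChar hψ (s := -(c ^ 2 * l)) (t := -(1 ^ 2 * l)) fun z => by
    obtain ⟨t, rfl⟩ := cube_surj h3 z
    exact smul_left_injective ℂ h0 ((k4 c c.ne_zero t).symm.trans (k4 1 one_ne_zero t))
  exact hc (Units.ext (by simpa [hl] using this))

theorem caseA (hl : l ≠ 0) (hm : m ≠ 0) (h : NZ ρ ψ [9, 11] [8, 10] [l, m]) :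
    Nat.card F * (Nat.card F - 1) ≤ 6 * finrank ℂ (W ρ ψ [9, 11] [10] [m]) := by
  classical
  have := Fintype.ofFinite F
  obtain ⟨a, v, hv, h0⟩ := h.ev hψ 6 (iv_W false (by simp) 6 [9, 11] [8, 10])
  obtain ⟨⟨h9, h11⟩, h6, h8, h10⟩ : (v ∈ Ev ρ ψ 9 0 ∧ v ∈ Ev ρ ψ 11 0) ∧ v ∈ Ev ρ ψ 6 a ∧
    v ∈ Ev ρ ψ 8 l ∧ v ∈ Ev ρ ψ 10 m := by simpa [mem_W] using hv
  have d1 : (C a + C l * X - C m * X ^ 3).natDegree = 3 := by compute_degree!
  have d2 : (C l * X ^ 2).natDegree = 2 := by compute_degree!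
  have h1 := FiniteField.card_image_polynomial_eval (natDegree_pos_iff_degree_pos.1 (d1 ▸ three_pos))
  have h2 := FiniteField.card_image_polynomial_eval (natDegree_pos_iff_degree_pos.1 (d2 ▸ two_pos))
  have h4 := card_le (fun t => ρ (x 6 t)) (W ρ ψ [9, 11] [8, 10] [l, m])
    (J := Finset.univ.image fun t => (C a + C l * X - C m * X ^ 3).eval t) (χ := fun b t => ψ (t * b.1))
    (fun _ _ e => Subtype.ext (ev_inj hψ e)) fun ⟨b, hb⟩ => by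
      obtain ⟨t, -, rfl⟩ := Finset.mem_image.1 hb
      refine ⟨_, iv_W true (fun _ => h3) 7 [9, 11] [8, 10] (by decide +kernel) t v (by simp [mem_W, *]), rho_ne_zero _ h0, ?_⟩
      change _ ∈ Ev ρ ψ 6 (eval t _)
      rw [show eval t (C a + C l * X - C m * X ^ 3) = a + (t * l - t ^ 3 * m) by simp; ring]
      exact ev_of h6 fun u => by simpa using sw76 h8 h9 h10 h11
  have h5 := card_mul_le (fun t => ρ (x 8 t)) (W ρ ψ [9, 11] [10] [m])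
    (J := (Finset.univ.image fun t => (C l * X ^ 2).eval t).erase 0) (χ := fun b t => ψ (t * b.1))
    (fun _ _ e => Subtype.ext (ev_inj hψ e)) (d := finrank ℂ (W ρ ψ [9, 11] [8, 10] [l, m])) fun ⟨b, hb⟩ => by
      obtain ⟨t, -, rfl⟩ := Finset.mem_image.1 (Finset.mem_of_mem_erase hb)
      have ht : t ≠ 0 := by rintro rfl; simp at hb
      refine finrank_le_of_map ρ ((CG F).h 8 (Units.mk0 t ht)⁻¹) fun v hv => ⟨mem_W.2
        ⟨hE0 _ _ (mem_W.1 hv).1, ?_⟩, ?_⟩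
      · simpa using hE (r := 10) 8 (Units.mk0 t ht)⁻¹ 0 ((mem_W.1 hv).2 (10, m) (by simp))
      · simpa using! hE (r := 8) 8 (Units.mk0 t ht)⁻¹ 2 ((mem_W.1 hv).2 (8, l) (by simp))
  have h7 := FiniteField.odd_card_of_char_ne_two (F := F) fun e => by
    have := ringChar.Nat.cast_ringChar (R := F)
    rw [e] at this
    exact one_ne_zero (by push_cast at this; linear_combination h3 - this : (1 : F) = 0)
  rw [d1] at h1
  rw [d2] at h2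
  rw [Nat.card_eq_fintype_card, Fintype.card_coe] at h4 h5
  rw [Finset.card_erase_of_mem (by simp)] at h5
  rw [Nat.card_eq_fintype_card]
  calc _ ≤ (3 * _) * (2 * _) := Nat.mul_le_mul (h1.trans (Nat.mul_le_mul_left 3 h4)) (by omega :
        _ ≤ 2 * ((Finset.univ.image fun t => (C l * X ^ 2).eval t).card - 1))
    _ ≤ _ := by nlinarith

theorem bound_three (hq : 9 ≤ Nat.card F) (h : ρ (x 11 t) ≠ 1) :
    Nat.card F ^ 4 + Nat.card F ^ 2 ≤ finrank ℂ V + 2 := by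
  obtain ⟨l, hl, m, hm, h1⟩ := exists_pair hψ h3 (by omega) h
  have h2 := (h1.heis (heis87 hψ h3 hm (fun v => by simp +contextual [mem_W]) (iv_W true (fun _ => h3) 8 _ _) (iv_W true (fun _ => h3) 7 _ _))).1
  have h4 : NZ ρ ψ [11] [9, 10] [_, _] := (h2.heis (heis_top hψ hl (fun v => by simp +contextual [mem_W])
    (iv_W true (fun _ => h3) 10 _ _) (iv_W true (fun _ => h3) 6 _ _))).1.n 1 [11] [9, 10]
  have h5 : NZ ρ ψ [9, 11] [10] [sg 1 11 (sg 0 11 l)] := ((((h2.heis (heis1 hψ 6 10 11 (-1) (by simp) hl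
    (fun v => by simp +contextual [mem_W]) (iv_W true (fun _ => h3) 6 _ _) (iv_W true (fun _ => h3) 10 _ _))).1.n 0 [9, 10] [8, 11]).n 1
      [9, 11] [7, 10])).mono _ _ _
  have k1 : ∀ a ≠ 0, ∀ b ≠ 0, NZ ρ ψ [8, 11] [9, 10] [a, b] ∧ Nat.card F ≤ finrank ℂ (W ρ ψ [11] [9, 10] [a, b]) :=
    fun a ha b hb => ((h4.tor 8 (sg_ne hm) ha).tor 5 (sg_ne hl) hb).heis
      (heis87 hψ h3 ha (fun v => by simp +contextual [mem_W]) (iv_W true (fun _ => h3) 8 _ _) (iv_W true (fun _ => h3) 7 _ _))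
  have k2 : ∀ B, (∀ b ≠ 0, B ≤ finrank ℂ (W ρ ψ [9, 11] [10] [b])) → (Nat.card F - 1) *
      (Nat.card F * ((Nat.card F - 1) * Nat.card F + B) + ((Nat.card F - 1) * Nat.card F + B)) +
      finrank ℂ (W ρ ψ [10, 11] [] []) ≤ finrank ℂ V := fun B hB => top_bound hψ fun b hb =>
    (Nat.add_le_add_left (hB b hb) _).trans (filt hψ 9 fun a ha => (k1 a ha b hb).2)
  obtain ⟨q, hF⟩ : ∃ q, Nat.card F = q + 9 := Nat.exists_eq_add_of_le' hq
  by_cases hA : ∃ a ≠ 0, ∃ b ≠ 0, NZ ρ ψ [9, 11] [8, 10] [a, b]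
  · obtain ⟨a, ha, b, hb, hA⟩ := hA
    have h6 := caseA hψ h3 ha hb hA
    have h7 := k2 _ fun c hc => (dim_tor [9, 11] 10 hb hc).le
    rw [hF, show q + 9 - 1 = q + 8 from rfl] at h6 h7
    rw [hF]
    generalize finrank ℂ (W ρ ψ [9, 11] [10] [b]) = B at h6 h7
    obtain ⟨d, hd⟩ := Nat.exists_eq_add_of_le h6
    have : 6 * ((q + 8) * ((q + 9) * B + B)) = (q + 8) * (q + 10) * ((q + 9) * (q + 8) + d) := by
      rw [← hd]; ring
    ring_nf at this h7 ⊢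
    omega
  push Not at hA
  obtain ⟨a, h6⟩ := (k1 1 one_ne_zero 1 one_ne_zero).1.ev hψ 6 (iv_W true (fun _ => h3) 6 _ _)
  replace h6 : NZ ρ ψ [9, 11] [10, 8, 6] [_, _, _] := h6.n 0 [9, 11] [10, 8, 6]
  have h7 : NZ ρ ψ [9, 10, 11] [8] [sg 0 9 1] := by
    by_cases ha : a = 0
    · exact h6.mono _ _ _ (by simp +contextual [mem_W, ha, sg])
    · exact (hA (sg 0 9 1) (sg_ne one_ne_zero) (sg 0 6 a) (sg_ne ha) (h6.mono _ _ _)).elim
  have k3 : ∀ c ≠ 0, NZ ρ ψ [6, 9, 10, 11] [8] [c] ∧ Nat.card F ≤ finrank ℂ (W ρ ψ [9, 10, 11] [8] [c]) :=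
    fun c hc => (h7.tor1 (sg_ne one_ne_zero) hc).heis (heisN hψ 6 7 (iv_W true (fun _ => h3) 6 _ _) (iv_W true (fun _ => h3) 7 _ _) fun a ha z =>
      ⟨z / (a * c), fun v hv => by
        simp only [mem_W, List.forall_mem_cons, List.zip_cons_cons] at hv
        rw [sw76 hv.2.1 hv.1.1 hv.1.2.1 hv.1.2.2.1]
        congr 2
        field_simp
        ring⟩)
  have h8 : NZ ρ ψ [8, 9, 10, 11] [7] [_] := ((h7.heis (heisN hψ 7 6 (iv_W true (fun _ => h3) 7 _ _) (iv_W true (fun _ => h3) 6 _ _) fun a ha z =>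
      ⟨-z / (a * sg 0 9 1), fun v hv => by
        have := sg_ne (i := 0) (r := 9) (one_ne_zero (α := F))
        simp only [mem_W, List.forall_mem_cons, List.zip_cons_cons] at hv
        rw [sw76 hv.2.1 hv.1.1 hv.1.2.1 hv.1.2.2.1, smul_smul, ← ψ.map_add_eq_mul,
          show z + _ = 0 by field_simp; ring]
        simp⟩)).1.n 1 [8, 9, 10, 11] [7])
  have h9 : NZ ρ ψ [10, 11] [9] [_] := (k3 1 one_ne_zero).1.n 0 [10, 11] [9]
  have k4 : ∀ b ≠ 0, NZ ρ ψ [6, 8, 9, 11] [10] [b] ∧ Nat.card F ≤ finrank ℂ (W ρ ψ [8, 9, 11] [10] [b]) :=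
    fun b hb => by
    obtain ⟨c, h10⟩ := (h5.tor1 (sg_ne (sg_ne hl)) hb).ev hψ 8 (iv_W true (fun _ => h3) 8 _ _)
    obtain rfl : c = 0 := by_contra fun hc => hA c hc b hb h10
    refine (h10.mono [8, 9, 11] [10] [b]).heis
      (heisN hψ 6 7 (iv_W true (fun _ => h3) 6 _ _) (iv_W true (fun _ => h3) 7 _ _) fun a ha z => ?_)
    obtain ⟨t, ht⟩ := cube_surj h3 (-z / (a * b))
    refine ⟨t, fun v hv => ?_⟩
    simp only [mem_W, List.forall_mem_cons, List.zip_cons_cons] at hv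
    rw [sw76 hv.1.1 hv.1.2.1 hv.2.1 hv.1.2.2.1, ht]
    congr 2
    field_simp
    ring
  have f1 := k2 _ fun b hb => (k4 b hb).2.trans (Submodule.finrank_mono fun v => by simp +contextual [mem_W])
  have f2 := filt (ρ := ρ) hψ 9 (Z := [10, 11]) (P := []) (ls := []) fun a ha =>
    ((h9.tor1 (sg_ne one_ne_zero) ha).heis (heis87 hψ h3 ha (fun v => by simp +contextual [mem_W])
      (iv_W true (fun _ => h3) 8 _ _) (iv_W true (fun _ => h3) 7 _ _))).2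
  have f3 := filt (ρ := ρ) hψ 8 (Z := [9, 10, 11]) (P := []) (ls := []) fun a ha => (k3 a ha).2
  have f4 : (Nat.card F - 1) * 2 ≤ finrank ℂ (W ρ ψ [8, 9, 10, 11] [] []) := by
    obtain ⟨c, h10⟩ := (show NZ ρ ψ _ [6] [_] from (k4 1 one_ne_zero).1.n 0 [8, 9, 10, 11] [6]).ev hψ 7 (iv_W true (fun _ => h3) 7 _ _)
    by_cases hc : c = 0
    · have f5 := filt (ρ := ρ) hψ 7 (Z := [8, 9, 10, 11]) (P := []) (ls := []) fun a ha =>
        (h8.tor1 (sg_ne (sg_ne one_ne_zero)) ha).pos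
      have f6 := filt (ρ := ρ) hψ 6 (Z := [7, 8, 9, 10, 11]) (P := []) (ls := []) fun a ha =>
        ((h10.mono _ _ [sg 0 10 1] (by simp +contextual [mem_W, hc])).tor1 (sg_ne one_ne_zero) ha).pos
      omega
    refine le_trans (Nat.le_add_right _ _) (filt hψ 7 fun a ha => ?_)
    have := filt (ρ := ρ) hψ 6 (Z := [8, 9, 10, 11]) (P := [7]) (ls := [a]) fun b hb =>
      (((h10.tor 9 hc ha).tor 11 (sg_ne one_ne_zero) hb).mono _ [6, 7] [b, a]).pos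
    omega
  rw [hF, show q + 9 - 1 = q + 8 from rfl] at f1 f2 f3 f4
  rw [hF]
  ring_nf at f1 f2 f3 f4 ⊢
  omega

end Cfsg.Lib.MD.G2
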