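import Cfsg.Agent.Lib.MD.G2C
import Cfsg.Agent.Lib.MD.G2S

/-!
Representations of G₂(q) for q prime to 3.
-/

set_option autoImplicit false
set_option linter.unusedSectionVars false
set_option maxRecDepth 100000

namespace Cfsg.Lib.MD.G2

open Module Cfsg.Lie Cfsg.Lib.Sz Cfsg.Lib.RepDeg Cfsg.Lib.CharDeg Cfsg.Lib.Chev Cfsg.Lib.Chev.RootSys
  Cfsg.Lib.Twisted

variable {F : Type*} [Field F] {V : Type*} [AddCommGroup V] [Module ℂ V]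
  {ρ : chevG2.group F →* End ℂ V} {ψ : AddChar F ℂ} {r s k : Fin 12} {l l' m m' t u : F} {v : V}
  {Z Z' P : List (Fin 12)} {ls : List F} {N : Submodule ℂ V} {g : chevG2.group F}

theorem mem_cyc3 {G : Type*} [Group G] {ρ : G →* End ℂ V} {g : G} (h : g ^ 3 = 1) :
    v ∈ Fx ρ (cyc3 g h).range ↔ ρ g v = v :=
  mem_Fx_range.trans ⟨fun e => pow_one g ▸ e (.ofAdd 1), fun e _ => (stab ρ v).pow_mem e _⟩

/-- The values of the roots on the torus. -/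
noncomputable def ch (p : Fˣ × Fˣ) (r : Fin 12) : Fˣ := p.1 ^ mG2.α r 1 * p.2 ^ (mG2.α r 0 - mG2.α r 1)

theorem ch_val (a b : Fˣ) : ch (a, b) 6 = a / b ∧ ch (a, b) 9 = a * b ∧ ch (a, b) 10 = a * b ^ 2 ∧
    ch (a, b) 11 = a ^ 2 * b := by
  have : mG2.α 6 = ![0, 1] ∧ mG2.α 9 = ![2, 1] ∧ mG2.α 10 = ![3, 1] ∧ mG2.α 11 = ![3, 2] := by
    decide +kernel
  simp [ch, this, div_eq_mul_inv, sq]

section

variable {τ : Fˣ × Fˣ →* chevG2.group F} (hτ : ∀ a b, τ (a, b) = (CG F).h 6 a * (CG F).h 10 (a * b))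
include hτ

theorem acts_τ (p : Fˣ × Fˣ) : (CG F).Acts (τ p) 1 (ch p) := by
  have : ∀ r, mG2.pair 6 r + mG2.pair 10 r = mG2.α r 1 ∧ mG2.pair 10 r = mG2.α r 0 - mG2.α r 1 := by
    decide +kernel
  exact hτ p.1 p.2 ▸ (((CG F).acts_h 6 p.1).mul ((CG F).acts_h 10 _)).congr (one_mul _) fun r => by
    rw [ch, ← (this r).2, ← (this r).1, mul_zpow, zpow_add, mul_assoc]; rfl

theorem conj_τ (i : Fin 2) {p p' : Fˣ × Fˣ} (h : ∀ r, ch p' (wG i r) = ch p r) :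
    n F i * τ p * (n F i)⁻¹ = τ p' := by
  have k : ∀ p, τ p ∈ (CG F).H := fun p => hτ p.1 p.2 ▸ mul_mem ((CG F).h_mem_H _ _) ((CG F).h_mem_H _ _)
  have hn := (CG F).acts_n_simple i
  refine ChevSys.Adjoint.eq_of_acts (sysG_adjoint checkedG2 F) ((CG F).conj_mem_H ((CG F).n_mem_N _ _) (k p))
    (k p') (((hn.mul (acts_τ hτ p)).mul hn.inv).congr (by simp; rfl) fun r => ?_)
    (acts_τ hτ p')
  rw [Equiv.Perm.one_apply, mul_inv_cancel_comm, ← h, ← sref_G, sref_inv, sref_sref]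

theorem conj_τ0 (a b : Fˣ) : n F 0 * τ (a, b) * (n F 0)⁻¹ = τ (a * b, b⁻¹) := conj_τ hτ 0 fun r => by
  obtain ⟨h1, h2⟩ := (by decide +kernel : ∀ r, mG2.α (wG 0 r) 1 = mG2.α r 1 ∧
    mG2.α r 0 - mG2.α r 1 = mG2.α r 1 - (mG2.α (wG 0 r) 0 - mG2.α (wG 0 r) 1)) r
  rw [ch, ch, h2, mul_zpow, inv_zpow, mul_assoc, ← zpow_sub, h1]

theorem conj_τ1 (a b : Fˣ) : n F 1 * τ (a, b) * (n F 1)⁻¹ = τ (b, a) := conj_τ hτ 1 fun r => by
  obtain ⟨h1, h2⟩ := (by decide +kernel : ∀ r, mG2.α (wG 1 r) 1 = mG2.α r 0 - mG2.α r 1 ∧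
    mG2.α (wG 1 r) 0 - mG2.α (wG 1 r) 1 = mG2.α r 1) r
  rw [ch, ch, h2, h1, mul_comm]

theorem iv_τ (p : Fˣ × Fˣ) (h : ∀ r ∈ P, ch p r = 1 := by simp) : Iv ρ (W ρ ψ Z P ls) (τ p) := fun v hv =>
  mem_W.2 ⟨fun r hr => by simpa using ev_acts (acts_τ hτ p) ((mem_W.1 hv).1 r hr), fun a ha => by
    simpa [h _ (List.of_mem_zip ha).1] using ev_acts (acts_τ hτ p) ((mem_W.1 hv).2 a ha)⟩

variable [Finite F] [FiniteDimensional ℂ V]

theorem tr_fp (p : Fˣ × Fˣ) (r : Fin 12) (hr : ch p r ≠ 1) (hx : ∀ t, Iv ρ (W ρ ψ Z P ls) (x r t))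
    (h : ∀ r ∈ P, ch p r = 1 := by simp) :
    trN ρ (W ρ ψ (r :: Z) P ls) (τ p) = trN ρ (W ρ ψ Z P ls) (τ p) := by
  have k := (acts_τ hτ p).conj' r
  have h1 : (1 - ch p r : F) ≠ 0 := sub_ne_zero.2 fun e => hr (Units.ext e.symm)
  rw [← W_zero, ← Fx_xH]
  refine trN_fpf (fun _ => hx _) (iv_τ hτ p h) (by
    rw [Fx_xH (ψ := ψ)]; exact fun v hv => by simpa using ev_acts (acts_τ hτ p) hv) fun a =>
      ⟨.ofAdd (ch p r * a.toAdd / (1 - ch p r)), ?_⟩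
  rw [← map_inv, mul_assoc]
  refine (k _).trans (Eq.trans ?_ (congrArg _ (k _).symm))
  rw [← mul_assoc]
  refine congrArg (· * _) (Eq.trans (congrArg _ ?_) (x_add r _ _).symm)
  simp only [toAdd_ofAdd, toAdd_inv]
  field_simp
  ring

theorem dim_τ (hψ : ψ ≠ 1) (r : Fin 12) (hN : ∀ p, Iv ρ N (τ p)) (hx : ∀ t, Iv ρ N (x r t))
    (h : ∀ c, ∃ p : Fˣ × Fˣ, ch p r = c) : finrank ℂ N =
      (Nat.card F - 1) * finrank ℂ ↥(N ⊓ Ev ρ ψ r 1) + finrank ℂ ↥(N ⊓ Ev ρ ψ r 0) ∧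
      ∀ l ≠ 0, finrank ℂ ↥(N ⊓ Ev ρ ψ r l) = finrank ℂ ↥(N ⊓ Ev ρ ψ r 1) := by
  have k : ∀ l ≠ 0, ∀ l' ≠ 0, finrank ℂ ↥(N ⊓ Ev ρ ψ r l) ≤ finrank ℂ ↥(N ⊓ Ev ρ ψ r l') :=
    fun l hl l' hl' => by
      obtain ⟨p, hp⟩ := h (Units.mk0 _ (div_ne_zero hl hl'))
      exact finrank_le_of_map ρ (τ p) fun v hv => ⟨hN p v hv.1, by
        simpa [hp, hl] using ev_acts (acts_τ hτ p) hv.2⟩
  have k' := fun l hl => le_antisymm (k l hl 1 one_ne_zero) (k 1 one_ne_zero l hl)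
  exact ⟨filt_eq hψ r hx k', k'⟩

end

variable [Finite F] [FiniteDimensional ℂ V] [Finite (chevG2.group F)] (hψ : ψ ≠ 1)
  (h3 : (3 : F) ≠ 0) (hq : 4 < Nat.card F) (h : ρ (x 11 t) ≠ 1) (hk : finrank ℂ V ≤ Nat.card F ^ 3)
include hψ h3 hq h hk

theorem crit (m : F) (hm : m ≠ 0) : finrank ℂ (W ρ ψ [9, 11] [10] [m]) = 1 ∧
    finrank ℂ (W ρ ψ [11] [10] [m]) = Nat.card F ∧ NZ ρ ψ [6, 9, 11] [10] [m] := by
  have k1 : ∀ m ≠ 0, finrank ℂ (W ρ ψ [11] [10] [m]) = Nat.card F * finrank ℂ (W ρ ψ [9, 11] [10] [m]) :=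
    fun m hm => by
      rw [← W_zero (r := 9)]
      exact heis1 hψ 9 7 10 3 (by simpa using h3) hm
        (fun v => by simp +contextual [mem_W]) (iv_W false (by simp) 9 _ _) (iv_W false (by simp) 7 _ _)
  obtain ⟨l, hl, h1⟩ := exists_top hψ h
  have h2 : NZ ρ ψ [11] [10] [_] := (h1.heis (heis_top hψ hl (fun v => by simp +contextual [mem_W])
    (iv_W false (by simp) 10 [] [11]) (iv_W false (by simp) 6 [] [11]))).1.n 1 [11] [10]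
  have h4 := Nat.pos_of_mul_pos_left (k1 m hm ▸ (h2.tor1 (sg_ne hl) hm).pos)
  have h5 : finrank ℂ (W ρ ψ [9, 11] [10] [m]) ≤ 1 := by
    by_contra h5
    have := top_bound (ρ := ρ) hψ (B := Nat.card F * 2) fun b hb => by
      rw [k1 b hb, dim_tor _ _ hb hm]; exact Nat.mul_le_mul_left _ (by omega)
    obtain ⟨q, hF⟩ := Nat.exists_eq_add_of_lt hq
    rw [hF, Nat.add_sub_cancel] at this
    rw [hF] at hk
    ring_nf at this hk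
    omega
  refine ⟨by omega, by rw [k1 m hm, le_antisymm h5 h4, mul_one], ?_⟩
  obtain ⟨a, v, hv, h0⟩ := NZ.ev hψ (pos_iff.1 h4) 6 (iv_W false (by simp) 6 [9, 11] [10])
  obtain ⟨c, hc⟩ : ∃ c : Fˣ, c ^ 3 ≠ 1 := by
    by_contra! hc
    have h1 := card_units_pow_eq_one (K := F) 3
    rw [Nat.card_congr (Equiv.subtypeUnivEquiv hc), Nat.card_units] at h1
    have := Nat.gcd_le_right (Nat.card F - 1) three_pos
    omega
  rw [← W_cons] at hv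
  obtain ⟨z, hz⟩ := exists_smul_of_le_one h5 hv.1 h0 (w := ρ ((CG F).h 8 c) v) (mem_W.2
    ⟨hE0 _ _ (mem_W.1 hv.1).1, by simpa using hE (r := 10) 8 c 0 ((mem_W.1 hv.1).2 (10, m) (by simp))⟩)
  have h6 := ev_unique hψ (rho_ne_zero _ h0) (hE 8 c 3 hv.2) (hz ▸ Submodule.smul_mem _ z hv.2)
  obtain rfl : a = 0 := by
    by_contra ha
    exact hc (Units.ext (by simpa [ha, eq_div_iff] using! h6.symm))
  exact ⟨v, W_zero (ρ := ρ) ▸ hv, h0⟩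

theorem crit_bound : (Nat.card F - 1) * (Nat.card F * Nat.card F + Nat.card F +
    finrank ℂ (W ρ ψ [10, 11] [6] [1])) + finrank ℂ (W ρ ψ [6, 10, 11] [] []) ≤ finrank ℂ V ∧
    0 < finrank ℂ (W ρ ψ [10, 11] [6] [1]) := by
  have h1 := top_bound (ρ := ρ) hψ fun b hb => (crit hψ h3 hq h hk b hb).2.1.ge
  have h2 := filt (ρ := ρ) hψ 6 (Z := [10, 11]) (P := []) (ls := []) fun b hb =>
    (dim_tor _ _ one_ne_zero hb).le
  have h4 : NZ ρ ψ _ _ [_] := (crit hψ h3 hq h hk 1 one_ne_zero).2.2.n 0 [10, 11] [6]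
  exact ⟨by rw [mul_add]; omega, (h4.tor1 (sg_ne one_ne_zero) one_ne_zero).pos⟩

end Cfsg.Lib.MD.G2
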