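import Cfsg.Agent.Lib.MD.G2D

/-!
Representations of G₂(q) for q ≡ 1 modulo 3.
-/

set_option autoImplicit false
set_option linter.unusedSectionVars false
set_option maxRecDepth 100000

namespace Cfsg.Lib.MD.G2

open Module Cfsg.Lie Cfsg.Lib.Sz Cfsg.Lib.RepDeg Cfsg.Lib.CharDeg Cfsg.Lib.Chev Cfsg.Lib.Chev.RootSys
  Cfsg.Lib.Twisted

variable {F : Type*} [Field F]

open Classical in
theorem sum_cube [Fintype F] {ω : Fˣ} (hω : (ω : F) ^ 2 + ω + 1 = 0) (w1 : ω ≠ 1) (w2 : ω * ω ≠ 1)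
    (φ : Fˣ → ℂ) : ∑ s, (if s ^ 3 = 1 then φ s else 0) = φ 1 + φ ω + φ (ω * ω) := by
  rw [← Finset.sum_filter, show Finset.univ.filter (· ^ 3 = 1) = {1, ω, ω * ω} from Finset.ext fun s => ?_,
    Finset.sum_insert (by simp [w1.symm, w2.symm]), Finset.sum_pair (by simp [w1]), add_assoc]
  simp only [Finset.mem_filter, Finset.mem_univ, true_and, Finset.mem_insert, Finset.mem_singleton,
    Units.ext_iff, Units.val_pow_eq_pow_val, Units.val_one, Units.val_mul, ← sub_eq_zero (a := (s : F)),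
    ← mul_eq_zero]
  rw [← sub_eq_zero]
  exact Eq.congr_left (by linear_combination (s ^ 2 - s * ω + ω - 1) * hω)

open Classical in
theorem sum_lines {A : Type*} [CommGroup A] [Fintype A] {f : A × A → ℂ}
    (f0 : ∀ a b, a ≠ b → a * b ^ 2 ≠ 1 → a ^ 2 * b ≠ 1 → f (a, b) = 0) (f1 : ∀ a b, f (b, a) = f (a, b))
    (f2 : ∀ s, f (s ^ 2, s⁻¹) = f (s, s)) :
    ∑ p, f p = 3 * ∑ s, f (s, s) - 2 * ∑ s, if s ^ 3 = 1 then f (s, s) else 0 := by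
  have : ∀ a b, f (a, b) = (if a = b then f (a, b) else 0) + (if b⁻¹ ^ 2 = a then f (a, b) else 0) +
      (if a⁻¹ ^ 2 = b then f (a, b) else 0) - 2 * if a = b then if a ^ 3 = 1 then f (a, a) else 0 else 0 :=
    fun a b => by
    have e1 : b⁻¹ ^ 2 = a ↔ a * b ^ 2 = 1 := by rw [inv_pow, inv_eq_iff_mul_eq_one, mul_comm]
    have e2 : a⁻¹ ^ 2 = b ↔ a ^ 2 * b = 1 := by rw [inv_pow, inv_eq_iff_mul_eq_one]
    simp only [e1, e2]
    by_cases e : a = b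
    · subst e
      simp only [← pow_succ, ← pow_succ', if_true]
      split_ifs <;> ring
    rw [if_neg e, if_neg e]
    split_ifs with e3 e4 e4
    · exact (e (mul_left_cancel (a := a * b) (by
        rw [show a * b * a = a ^ 2 * b by rw [sq, mul_right_comm], e4, mul_assoc, ← sq, e3]))).elim
    · ring
    · ring
    · rw [f0 a b e e3 e4]; ring
  rw [Fintype.sum_prod_type, Finset.sum_congr rfl fun a _ => Finset.sum_congr rfl fun b _ => this a b]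
  simp only [Finset.sum_sub_distrib, Finset.sum_add_distrib, ← Finset.mul_sum, Finset.sum_ite_eq,
    Finset.mem_univ, if_true]
  rw [Finset.sum_comm]
  simp only [Finset.sum_ite_eq, Finset.mem_univ, if_true]
  rw [← Equiv.sum_comp (Equiv.inv A) fun b => f (b⁻¹ ^ 2, b),
    ← Equiv.sum_comp (Equiv.inv A) fun b => f (b, b⁻¹ ^ 2)]
  simp only [Equiv.inv_apply, inv_inv, f1 (_ ^ 2), f2]
  ring

variable {V : Type*} [AddCommGroup V] [Module ℂ V]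
  {ρ : chevG2.group F →* End ℂ V} {ψ : AddChar F ℂ} {t : F}
  [Finite F] [FiniteDimensional ℂ V] [Finite (chevG2.group F)] (hψ : ψ ≠ 1)
  (h3 : (3 : F) ≠ 0) (hq : 4 < Nat.card F) (h : ρ (x 11 t) ≠ 1) (hk : finrank ℂ V ≤ Nat.card F ^ 3)
  {τ : Fˣ × Fˣ →* chevG2.group F} (hτ : ∀ a b, τ (a, b) = (CG F).h 6 a * (CG F).h 10 (a * b))

include hτ in
theorem comm_τ {p : Fˣ × Fˣ} {r : Fin 12} (e : ch p r = 1) (t : F) : τ p * x r t = x r t * τ p := by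
  simpa [e] using! (acts_τ hτ p).conj' r t

theorem ch_surj (r : Fin 12) (hr : r = 6 ∨ r = 10 ∨ r = 11 := by simp) (c : Fˣ) : ∃ p : Fˣ × Fˣ, ch p r = c := by
  rcases hr with rfl | rfl | rfl
  exacts [⟨(c, 1), by simp [ch_val]⟩, ⟨(c, 1), by simp [ch_val]⟩, ⟨(1, c), by simp [ch_val]⟩]

include hψ h3 hq h hk

theorem crit_one : finrank ℂ (W ρ ψ [10, 11] [6] [1]) = 1 ∧ finrank ℂ (W ρ ψ [6, 10, 11] [] []) ≤ 1 := by
  obtain ⟨h1, h2⟩ := crit_bound hψ h3 hq h hk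
  obtain ⟨q, hF⟩ := Nat.exists_eq_add_of_lt hq
  obtain ⟨m, hm⟩ := Nat.exists_eq_add_of_lt h2
  rw [hF, hm, Nat.add_sub_cancel] at h1
  rw [hF] at hk
  ring_nf at h1 hk
  omega

include hτ

theorem dim_cent {ω : Fˣ} (w1 : ω ≠ 1) (w4 : ω * (ω * ω) = 1) (z3 : τ (ω, ω) ^ 3 = 1) : ∃ j d,
    3 * j + 1 = Nat.card F + 3 * d ∧
    finrank ℂ ↥(W ρ ψ [] [] [] ⊓ Fx ρ (cyc3 _ z3).range) = (Nat.card F - 1) * (Nat.card F * j + j) +
      finrank ℂ ↥(W ρ ψ [10, 11] [] [] ⊓ Fx ρ (cyc3 _ z3).range) ∧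
    finrank ℂ ↥(W ρ ψ [10, 11] [] [] ⊓ Fx ρ (cyc3 _ z3).range) = (Nat.card F - 1) * d +
      finrank ℂ ↥(W ρ ψ [6, 10, 11] [] [] ⊓ Fx ρ (cyc3 _ z3).range) := by
  have w2 : ω * ω ≠ 1 := fun e => w1 (by rwa [e, mul_one] at w4)
  have iv := fun r Z P ls h => iv_W (ρ := ρ) (ψ := ψ) (ls := ls) false (by simp) r Z P h
  have cm : ∀ p p', τ p * τ p' = τ p' * τ p := fun p p' => by rw [← map_mul, mul_comm, map_mul]
  have z6 : ch (ω, ω) 6 = 1 := by simp [ch_val]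
  have z10 : ch (ω, ω) 10 = 1 := by simp [ch_val, sq, w4]
  have z11 : ch (ω, ω) 11 = 1 := by simp [ch_val, sq, mul_assoc, w4]
  have w5 : ω * ω * (ω * ω) = ω := by rw [mul_assoc, w4, mul_one]
  have t1 := trN_three (N := W ρ ψ [11] [10] [1]) (ρ := ρ) z3 (iv_τ hτ _ (by simpa))
  have t2 := trN_three (N := W ρ ψ [9, 11] [10] [1]) (ρ := ρ) z3 (iv_τ hτ _ (by simpa))
  rw [← map_mul, Prod.mk_mul_mk] at t1 t2
  rw [tr_fp hτ _ 9 (by rwa [(ch_val _ _).2.1]) (iv 9 _ _ _ (by decide +kernel)) (by simpa),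
    tr_fp hτ _ 9 (by rwa [(ch_val _ _).2.1, w5]) (iv 9 _ _ _ (by decide +kernel))
      (by simp [ch_val, sq, w5, mul_assoc, w4]), (crit hψ h3 hq h hk 1 one_ne_zero).1] at t2
  rw [(crit hψ h3 hq h hk 1 one_ne_zero).2.1] at t1
  obtain ⟨Y, hY⟩ : ∃ Y, Y = Fx ρ (cyc3 _ z3).range := ⟨_, rfl⟩
  have mY : ∀ {v}, v ∈ Y ↔ ρ (τ (ω, ω)) v = v := hY ▸ mem_cyc3 z3
  rw [← hY] at t1 t2 ⊢
  have iY : ∀ g, τ (ω, ω) * g = g * τ (ω, ω) ∨ τ (ω, ω) * g = g * (τ (ω, ω) * τ (ω, ω)) → Iv ρ Y g :=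
    fun g e v hv => mY.2 (by rcases e with e | e <;> rw [← rho_mul, e] <;> simp [mY.1 hv])
  have i0 : Iv ρ Y (n F 0) := iY _ (.inr (by
    rw [← map_mul, Prod.mk_mul_mk, mul_inv_eq_iff_eq_mul.1 (conj_τ0 hτ _ _), w5,
      inv_eq_of_mul_eq_one_left w4]))
  have i1 : Iv ρ Y (n F 1) := iY _ (.inl (mul_inv_eq_iff_eq_mul.1 (conj_τ1 hτ _ _)).symm)
  have dY : ∀ Z r, (∀ t, Iv ρ (W ρ ψ Z [] []) (x r t)) → ch (ω, ω) r = 1 → (∀ c, ∃ p : Fˣ × Fˣ, ch p r = c) →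
      finrank ℂ ↥(W ρ ψ Z [] [] ⊓ Y) = (Nat.card F - 1) * finrank ℂ ↥(W ρ ψ Z [r] [1] ⊓ Y) +
        finrank ℂ ↥(W ρ ψ (r :: Z) [] [] ⊓ Y) ∧
      ∀ l ≠ 0, finrank ℂ ↥(W ρ ψ Z [r] [l] ⊓ Y) = finrank ℂ ↥(W ρ ψ Z [r] [1] ⊓ Y) := fun Z r h e e' => by
    obtain ⟨k1, k2⟩ := dim_τ hτ hψ r (N := W ρ ψ Z [] [] ⊓ Y) (fun p => (iv_τ hτ p).inf (iY _ (.inl (cm _ _))))
      (fun t => (h t).inf (iY _ (.inl (comm_τ hτ e t)))) e'
    refine ⟨by rwa [inf_right_comm, W_cons, inf_right_comm, W_zero] at k1, fun l hl => ?_⟩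
    have := k2 l hl
    rwa [inf_right_comm, W_cons, inf_right_comm, W_cons] at this
  obtain ⟨d11, e11⟩ := dY [] 11 (iv 11 _ _ _ (by decide +kernel)) z11 (ch_surj 11)
  obtain ⟨d10, e10⟩ := dY [11] 10 (iv 10 _ _ _ (by decide +kernel)) z10 (ch_surj 10)
  obtain ⟨d6, e6⟩ := dY [10, 11] 6 (iv 6 _ _ _ (by decide +kernel)) z6 (ch_surj 6)
  have k1 : ∀ l ≠ 0, finrank ℂ ↥(W ρ ψ [] [11] [l] ⊓ Y) = Nat.card F * finrank ℂ ↥(W ρ ψ [10] [11] [l] ⊓ Y) :=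
    fun l hl => by
      rw [heis_top hψ hl (fun v hv => by simpa [mem_W] using hv.1)
        (fun t => (iv 10 _ _ _ (by decide +kernel) t).inf (iY _ (.inl (comm_τ hτ z10 t))))
        (fun t => (iv 6 _ _ _ (by decide +kernel) t).inf (iY _ (.inl (comm_τ hτ z6 t)))),
        inf_right_comm, W_zero]
  have k2 : finrank ℂ ↥(W ρ ψ [] [11] [1] ⊓ Y) = Nat.card F * finrank ℂ ↥(W ρ ψ [11] [10] [1] ⊓ Y) := by
    refine le_antisymm ?_ ?_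
    · rw [k1 1 one_ne_zero, ← e10 _ (sg_ne (i := 1) (r := 11) one_ne_zero)]
      exact Nat.mul_le_mul_left _ (finrank_le_of_map ρ _ fun v hv => ⟨(nW 1 [11] [10] hv.1 :), i1 v hv.2⟩)
    · rw [← e11 _ (sg_ne (i := 1) (r := 10) one_ne_zero), k1 _ (sg_ne one_ne_zero)]
      exact Nat.mul_le_mul_left _ (finrank_le_of_map ρ _ fun v hv => ⟨(nW 1 [10] [11] hv.1 :), i1 v hv.2⟩)
  obtain ⟨c1, -, v, hv, h0⟩ := crit hψ h3 hq h hk 1 one_ne_zero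
  have hv' : v ∈ W ρ ψ [9, 11] [10] [1] := by rw [← W_zero] at hv; exact hv.1
  have hn : ρ (n F 0) v ∈ W ρ ψ [10, 11] [6] [sg 0 10 1] := (nW 0 [10, 11] [6] hv :)
  have k3 : finrank ℂ ↥(W ρ ψ [9, 11] [10] [1] ⊓ Y) = finrank ℂ ↥(W ρ ψ [10, 11] [6] [1] ⊓ Y) := by
    rw [← e6 _ (sg_ne (i := 0) (r := 10) one_ne_zero)]
    refine le_antisymm (finrank_le_of_map ρ (n F 0) fun w hw => ⟨?_, i0 w hw.2⟩)
      (finrank_le_of_map ρ (n F 0)⁻¹ fun w hw => ⟨?_, i0.inv w hw.2⟩)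
    · obtain ⟨z, rfl⟩ := exists_smul_of_le_one c1.le hv' h0 hw.1
      simpa using Submodule.smul_mem _ z hn
    · obtain ⟨z, rfl⟩ := exists_smul_of_le_one ((dim_tor _ _ (sg_ne one_ne_zero) one_ne_zero).trans
        (crit_one hψ h3 hq h hk).1).le hn (rho_ne_zero _ h0) hw.1
      simpa [← rho_mul] using Submodule.smul_mem _ z hv'
  refine ⟨_, _, ?_, by rw [d11, d10, k2, mul_add, add_assoc], d6⟩
  rw [← k3]
  exact_mod_cast (by linear_combination t2 - t1 : (3 * finrank ℂ ↥(W ρ ψ [11] [10] [1] ⊓ Y) + 1 : ℂ) =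
    Nat.card F + 3 * finrank ℂ ↥(W ρ ψ [9, 11] [10] [1] ⊓ Y))

omit hτ in
theorem not_one_mod (h1 : Nat.card F % 3 = 1) : False := by
  classical
  have := Fintype.ofFinite F
  have := Fact.mk Nat.prime_three
  obtain ⟨ω, ho⟩ := exists_prime_orderOf_dvd_card' (G := Fˣ) 3 (by rw [Nat.card_units]; omega)
  have w3 : ω ^ 3 = 1 := ho ▸ pow_orderOf_eq_one ω
  have w1 : ω ≠ 1 := by rintro rfl; simp at ho
  have w2 : ω * ω ≠ 1 := fun e => w1 (by rwa [pow_three, e, mul_one] at w3)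
  have w4 : ω * (ω * ω) = 1 := (pow_three ω).symm.trans w3
  have w5 : ω * ω * (ω * ω) = ω := by rw [mul_assoc, w4, mul_one]
  have hω : (ω : F) ^ 2 + ω + 1 = 0 := (mul_eq_zero.1 (show ((ω : F) - 1) * _ = 0 by
    linear_combination (by simpa using congrArg Units.val w3 : (ω : F) ^ 3 = 1))).resolve_left
      (sub_ne_zero.2 fun e => w1 (Units.ext e))
  obtain ⟨τ, hτ, c, c3, c1, c2⟩ := exists_sl3 h3 hω
  have iv := fun r Z h => iv_W (ρ := ρ) (ψ := ψ) (ls := []) false (by simp) r Z [] h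
  have cm : ∀ p p', τ p * τ p' = τ p' * τ p := fun p p' => by rw [← map_mul, mul_comm, map_mul]
  obtain ⟨tr, htr⟩ : ∃ tr : List (Fin 12) → Fˣ × Fˣ → ℂ, ∀ Z p, tr Z p = trN ρ (W ρ ψ Z [] []) (τ p) :=
    ⟨_, fun _ _ => rfl⟩
  have p11 : ∀ p, ch p 11 ≠ 1 → ch p 10 ≠ 1 → tr [10, 11] p = tr [] p := fun p e e' => by
    rw [htr, htr, tr_fp hτ p 10 e' (iv 10 _ (by decide +kernel)), tr_fp hτ p 11 e (iv 11 _ (by decide +kernel))]
  have p6 : ∀ p, ch p 6 ≠ 1 → tr [6, 10, 11] p = tr [10, 11] p := fun p e => by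
    rw [htr, htr, tr_fp hτ p 6 e (iv 6 _ (by decide +kernel))]
  have pn : ∀ i Z, (∀ s ∈ Z, ∃ r ∈ Z, wG i r = s) → ∀ p p', n F i * τ p * (n F i)⁻¹ = τ p' →
      tr Z p' = tr Z p := fun i Z hZ p p' e => by
    have k : Iv ρ (W ρ ψ Z [] []) (n F i) := fun v hv => nW i Z [] hv ⟨hZ, rfl⟩
    rw [htr, htr, ← e, trN_conj (iv_τ hτ p) k k.inv]
  obtain ⟨f, hf⟩ : ∃ f : Fˣ × Fˣ → ℂ, ∀ p, f p = tr [] p - tr [6, 10, 11] p := ⟨_, fun _ => rfl⟩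
  have f0 : ∀ a b, a ≠ b → a * b ^ 2 ≠ 1 → a ^ 2 * b ≠ 1 → f (a, b) = 0 := fun a b e1 e2 e3 => by
    obtain ⟨h4, -, h5, h6⟩ := ch_val a b
    rw [hf, p6 _ (by rwa [h4, Ne, div_eq_one]), p11 _ (h6 ▸ e3) (h5 ▸ e2), sub_self]
  have s1 := sum_lines f0 (fun a b => by
    by_cases e : a = b
    · rw [e]
    rw [hf, hf, p6 _ (by rwa [(ch_val b a).1, Ne, div_eq_one, eq_comm]), p6 _ (by
      rwa [(ch_val a b).1, Ne, div_eq_one]), pn 1 [] (by simp) _ _ (conj_τ1 hτ a b),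
      pn 1 [10, 11] (by decide +kernel) _ _ (conj_τ1 hτ a b)]) fun s => by
    have := conj_τ0 hτ (s ^ 2) s⁻¹
    rw [sq, mul_inv_cancel_right, inv_inv, ← sq] at this
    rw [hf, hf, pn 0 [] (by simp) _ _ this, pn 0 [6, 10, 11] (by decide +kernel) _ _ this]
  have s2 : ∑ s, f (s, s) = ∑ s, (tr [10, 11] (s, s) - tr [6, 10, 11] (s, s)) +
      ∑ s, if s ^ 3 = 1 then tr [] (s, s) - tr [10, 11] (s, s) else 0 := by
    rw [← Finset.sum_add_distrib]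
    refine Finset.sum_congr rfl fun s _ => ?_
    split_ifs with e
    · rw [hf]; ring
    · rw [hf, p11 _ (by rwa [(ch_val s s).2.2.2, ← pow_succ]) (by rwa [(ch_val s s).2.2.1, ← pow_succ']),
        add_zero]
  have sT := fun Z => sum_trN_one (ρ := ρ) (N := W ρ ψ Z [] []) fun p => iv_τ hτ p
  let κ := τ.comp ((MonoidHom.id Fˣ).prod (MonoidHom.id Fˣ))
  have sK : ∀ Z, ∑ s, tr Z (s, s) = Nat.card Fˣ * finrank ℂ ↥(W ρ ψ Z [] [] ⊓ Fx ρ κ.range) := fun Z =>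
    (Finset.sum_congr rfl fun s _ => htr Z _).trans (sum_trN_one (τ := κ) fun p => iv_τ hτ (p, p))
  have dK := (dim_τ hτ hψ 6 (N := W ρ ψ [10, 11] [] [] ⊓ Fx ρ κ.range)
    (fun p => (iv_τ hτ p).inf (.fx fun a => ⟨a, cm _ _⟩)) (fun t => (iv 6 _ (by decide +kernel) t).inf
      (.fx fun a => ⟨a, comm_τ hτ (p := (a, a)) (by simp [ch_val]) t⟩)) (ch_surj 6)).1
  rw [inf_right_comm _ _ (Ev ρ ψ 6 0), W_zero] at dK
  have z3 : τ (ω, ω) ^ 3 = 1 := by rw [← map_pow, Prod.pow_mk, w3, ← map_one τ]; rfl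
  have one : ∀ Z, tr Z (1, 1) = finrank ℂ (W ρ ψ Z [] []) := fun Z => by
    rw [htr, ← trN_one (ρ := ρ), ← map_one τ]; rfl
  have sY : ∀ Z, tr Z (1, 1) + tr Z (ω, ω) + tr Z (ω * ω, ω * ω) =
      3 * finrank ℂ ↥(W ρ ψ Z [] [] ⊓ Fx ρ (cyc3 _ z3).range) := fun Z => by
    rw [one, htr, htr, ← Prod.mk_mul_mk, map_mul, trN_three z3 (iv_τ hτ _)]
  obtain ⟨j, d, j1, j2, j3⟩ := dim_cent hψ h3 hq h hk hτ w1 w4 z3
  have y3 : τ (1, ω) ^ 3 = 1 := by rw [← map_pow, Prod.pow_mk, w3, one_pow, ← map_one τ]; rfl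
  have t1 := trN_three (N := W ρ ψ [6, 10, 11] [] []) (ρ := ρ) y3 (iv_τ hτ _)
  have iT : Iv ρ (⊤ ⊓ Fx ρ τ.range) c := Iv.top.inf (.fx c1)
  have t2 := trN_three c3 iT
  have hc : (Nat.card (Fˣ × Fˣ) : ℂ) ≠ 0 := by exact_mod_cast Nat.card_pos.ne'
  have t3 : ∀ g y, Iv ρ (⊤ ⊓ Fx ρ τ.range) g → (∀ p, ∃ a, g * τ p = a * τ y * a⁻¹) →
      trN ρ (⊤ ⊓ Fx ρ τ.range) g = tr [] y := fun g y hg e => mul_left_cancel₀ hc (by
    rw [← sum_trN (fun _ => .top) hg, Finset.sum_congr rfl (g := fun _ => tr [] y) fun p _ => by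
      obtain ⟨a, ha⟩ := e p
      rw [ha, trN_conj (N := ⊤) .top Iv.top Iv.top, htr, W_nil]]
    simp)
  rw [t3 _ _ iT fun p => (c2 p).1, t3 _ ((1, ω) * (1, ω)) (iT.mul iT) fun p => map_mul τ _ _ ▸ (c2 p).2] at t2
  rw [← map_mul, ← htr, ← htr] at t1
  have g1 := f0 1 ω w1.symm (by rwa [one_mul, sq]) (by rwa [one_pow, one_mul])
  have g2 := f0 1 (ω * ω) w2.symm (by rwa [one_mul, sq, w5]) (by rwa [one_pow, one_mul])
  simp only [← htr] at sT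
  simp only [hf, Finset.sum_sub_distrib, sum_cube hω w1 w2, sT, sK] at s1 s2 g1 g2
  have a1 := sY []
  have a2 := sY [10, 11]
  have a3 := sY [6, 10, 11]
  have b1 := (crit_one hψ h3 hq h hk).2
  have b2 := Submodule.finrank_mono (inf_le_left : W ρ ψ [6, 10, 11] [] [] ⊓ Fx ρ τ.range ≤ _)
  obtain ⟨q, hF⟩ := Nat.exists_eq_add_of_lt hq
  rw [j2, j3] at a1
  rw [j3] at a2
  rw [dK] at s2
  rw [W_nil] at s1 s2
  simp only [Prod.mk_mul_mk, mul_one] at t1 t2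
  simp only [Nat.card_prod, Nat.card_units, hF, Nat.add_sub_cancel] at s1 s2 a1 a2 j1
  have j4 := congrArg (Nat.cast (R := ℂ)) j1
  push_cast at s1 s2 a1 a2 j4
  generalize finrank ℂ ↥(⊤ ⊓ Fx ρ τ.range) = dT at *
  generalize finrank ℂ ↥(W ρ ψ [6, 10, 11] [] [] ⊓ Fx ρ τ.range) = dU at *
  generalize finrank ℂ ↥(W ρ ψ [10, 11] [] [] ⊓ Fx ρ κ.range ⊓ Ev ρ ψ 6 1) = δ at *
  generalize finrank ℂ ↥(W ρ ψ [6, 10, 11] [] [] ⊓ Fx ρ (cyc3 _ y3).range) = N at *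
  generalize finrank ℂ ↥(⊤ ⊓ Fx ρ τ.range ⊓ Fx ρ (cyc3 c c3).range) = N' at *
  generalize finrank ℂ ↥(W ρ ψ [6, 10, 11] [] []) = ε at *
  have h0 : (4 + q : ℂ) ≠ 0 := by exact_mod_cast (by omega : 4 + q ≠ 0)
  have e1 : (dT : ℂ) = dU + 3 * δ + q + 6 + 3 * d := mul_left_cancel₀ (mul_ne_zero h0 h0) (by
    linear_combination s1 + 3 * s2 + a1 - 3 * a2 + 2 * a3 + (4 + q) * (6 + q) * j4)
  have e2 : (dT : ℂ) + 3 * N = ε + 3 * N' := by linear_combination t2 - t1 - g1 - g2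
  norm_cast at e1 e2
  omega

end Cfsg.Lib.MD.G2
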