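import Mathlib

/-!
Non-divisibility of values of integral polynomials from Bezout identities.
-/

set_option autoImplicit false

namespace Cfsg.Lib.MD

/-- Evaluation of a list of coefficients. -/
def evL (q : ℤ) : List ℤ → ℤ
  | [] => 0
  | a :: l => a + q * evL q l

/-- Sum. -/
def adL : List ℤ → List ℤ → List ℤ
  | [], m => m
  | a :: l, [] => a :: l
  | a :: l, b :: m => (a + b) :: adL l m

/-- Product. -/
def muL : List ℤ → List ℤ → List ℤ
  | [], _ => []
  | a :: l, m => adL (m.map (a * ·)) (0 :: muL l m)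

/-- Translation of the variable. -/
def shL (c : ℤ) : List ℤ → List ℤ
  | [] => []
  | a :: l => adL [a] (muL [c, 1] (shL c l))

/-- The binomial `X ^ (d + 1) + c`. -/
def biL (p : ℕ × ℤ) : List ℤ := p.2 :: (List.replicate p.1 0 ++ [1])

/-- A product of binomials. -/
def prL (l : List (ℕ × ℤ)) : List ℤ := l.foldr (fun p m => muL (biL p) m) [1]

/-- Positive constant term and nonnegative coefficients. -/
def psL (l : List ℤ) : Bool := decide (0 < l.headD 0) && l.all (0 ≤ ·)

variable {q : ℤ}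

theorem ev_ad (l m : List ℤ) : evL q (adL l m) = evL q l + evL q m := by
  fun_induction adL l m <;> simp_all [evL]
  ring

theorem ev_map (a : ℤ) (m : List ℤ) : evL q (m.map (a * ·)) = a * evL q m := by
  induction m <;> simp_all [evL]
  ring

theorem ev_mu (l m : List ℤ) : evL q (muL l m) = evL q l * evL q m := by
  induction l <;> simp_all [evL, muL, ev_ad, ev_map]
  ring

theorem ev_sh (c : ℤ) (l : List ℤ) : evL q (shL c l) = evL (c + q) l := by
  induction l <;> simp_all [evL, shL, ev_ad, ev_mu]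

theorem ev_bi (p : ℕ × ℤ) : evL q (biL p) = q ^ (p.1 + 1) + p.2 := by
  have : ∀ n, evL q (List.replicate n 0 ++ [1]) = q ^ n := fun n => by
    induction n <;> simp_all [evL, List.replicate_succ, pow_succ']
  rw [biL, evL, this]
  ring

theorem ev_pr (l : List (ℕ × ℤ)) : evL q (prL l) = (l.map fun p => q ^ (p.1 + 1) + p.2).prod := by
  induction l with
  | nil => simp [prL, evL]
  | cons p l ih => rw [prL, List.foldr_cons, ev_mu, ev_bi, List.map_cons, List.prod_cons, ← ih, prL]

theorem ev_zero {l : List ℤ} (h : l.all (· == 0) = true) : evL q l = 0 := by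
  induction l <;> simp_all [evL]

theorem ev_nonneg (hq : 0 ≤ q) {l : List ℤ} (h : l.all (0 ≤ ·) = true) : 0 ≤ evL q l := by
  induction l with
  | nil => simp [evL]
  | cons a l ih =>
    simp only [List.all_cons, Bool.and_eq_true, decide_eq_true_eq] at h
    exact add_nonneg h.1 (mul_nonneg hq (ih h.2))

theorem ev_pos (hq : 0 ≤ q) {l : List ℤ} (h : psL l = true) : 0 < evL q l := by
  cases l with
  | nil => simp [psL] at h
  | cons a l =>
    simp only [psL, List.all_cons, Bool.and_eq_true, decide_eq_true_eq, List.headD_cons] at h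
    exact add_pos_of_pos_of_nonneg (of_decide_eq_true h.1) (mul_nonneg hq (ev_nonneg hq h.2.2))

/-- The check of a Bezout identity `t M + s f = g` and of the inequalities `0 < j g < f`. -/
def bzL (c j : ℤ) (f M : List ℤ) (d : List ℤ × List ℤ × List ℤ) : Bool :=
  (adL (muL d.1 M) (adL (muL d.2.1 f) (muL [-1] d.2.2))).all (· == 0) &&
    psL (shL c (muL [j] d.2.2)) && psL (shL c (adL f (muL [-j] d.2.2)))

theorem not_dvd_of_bz {c j : ℤ} {f M : List ℤ} {d : List ℤ × List ℤ × List ℤ}
    (h : bzL c j f M d = true) (hq : c ≤ q) : ¬ evL q f ∣ j * evL q M := fun e => by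
  simp only [bzL, Bool.and_eq_true] at h
  have h1 := ev_zero (q := q) h.1.1
  have h2 := ev_pos (sub_nonneg.2 hq) h.1.2
  have h3 := ev_pos (sub_nonneg.2 hq) h.2
  simp only [ev_sh, add_sub_cancel, ev_ad, ev_mu, evL, mul_zero, add_zero] at h1 h2 h3
  have h4 : evL q f ∣ j * evL q d.2.2 := by
    rw [show j * evL q d.2.2 = evL q d.1 * (j * evL q M) + evL q f * (j * evL q d.2.1) by
      linear_combination -j * h1]
    exact dvd_add (e.mul_left _) (dvd_mul_right _ _)
  have := Int.le_of_dvd h2 h4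
  linarith

theorem dvd_of_primePow {q k j s n M : ℕ} (hq : IsPrimePow q) (h0 : 0 < j) (hj : j < q)
    (e : k + j = q * s) (h : k ∣ q ^ n * M) : k ∣ j * M := by
  obtain ⟨p, a, hp, -, rfl⟩ := (isPrimePow_nat_iff q).1 hq
  obtain ⟨b, j, h1, rfl⟩ := Nat.exists_eq_pow_mul_and_not_dvd h0.ne' p hp.ne_one
  have h2 : b < a := (Nat.pow_lt_pow_iff_right hp.one_lt).1
    ((Nat.le_mul_of_pos_right _ (Nat.pos_of_mul_pos_left h0)).trans_lt hj)
  obtain ⟨c, rfl⟩ := Nat.exists_eq_add_of_lt h2
  obtain ⟨k, rfl⟩ : p ^ b ∣ k := (Nat.dvd_add_left (dvd_mul_right _ _)).1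
    (e ▸ (pow_dvd_pow p h2.le).mul_right _)
  have h3 : k + j = p * (p ^ c * s) := Nat.eq_of_mul_eq_mul_left (pow_pos hp.pos b) (by
    rw [mul_add, e]; ring)
  have h4 : k.Coprime p := ((Nat.Prime.coprime_iff_not_dvd hp).2 fun h5 =>
    h1 ((Nat.dvd_add_right h5).1 (h3 ▸ dvd_mul_right _ _))).symm
  rw [mul_assoc]
  exact Nat.mul_dvd_mul_left _ ((((h4.pow_right _).pow_right n).dvd_of_dvd_mul_left
    ((dvd_mul_left _ _).trans h)).mul_left _)

/-- No integer slightly below the value of `f` divides the order. -/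
theorem no_degree {q k n N c : ℕ} {f : List ℤ} {B : List (ℕ × ℤ)} {D : List (List ℤ × List ℤ × List ℤ)}
    (hD : ∀ j < n, bzL c (j + 1 : ℕ) (-(j + 1 : ℕ) :: f) (prL B) (D.getD j ([], [], [])) = true)
    (hn : n < c) (hq : IsPrimePow q) (hc : c ≤ q) {s M : ℕ} (hs : evL q f = s)
    (hM : (B.map fun p : ℕ × ℤ => (q : ℤ) ^ (p.1 + 1) + p.2).prod = (M : ℤ)) (h1 : q * s ≤ k + n) (h2 : k < q * s) :
    ¬ k ∣ q ^ N * M := fun h => by
  obtain ⟨j, e⟩ := Nat.exists_eq_add_of_lt h2
  have h3 := dvd_of_primePow (s := s) hq j.succ_pos (by omega) (by omega) h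
  refine not_dvd_of_bz (hD j (by omega)) (q := q) (by exact_mod_cast hc) ?_
  rw [ev_pr, hM, evL, hs, show -((j + 1 : ℕ) : ℤ) + q * s = k by
    rw [← Nat.cast_mul, e]; push_cast; ring]
  exact_mod_cast h3

end Cfsg.Lib.MD
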