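import Cfsg.Agent.Lib.MD.Chev
import Cfsg.Agent.Lib.Chev.OverTw

/-!
Root subgroups of twisted groups, indexed by the folded root system.
-/

set_option autoImplicit false
set_option linter.unusedSectionVars false

namespace Cfsg.Lib.MD

open Cfsg.Lib.Chev Cfsg.Lib.Chev.RootSys Cfsg.Lib.Chev.PreSys Cfsg.Lib.Chev.ChevSys Cfsg.Lib.Twisted
  Cfsg.Lib.Twisted.Twist Equiv
open scoped commutatorElement

theorem comm_two {G : Type*} [Group G] {a b a' b' : G} (h1 : Commute a a') (h2 : Commute a b')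
    (h3 : Commute b a') (h4 : Commute b b') : ⁅a * a', b * b'⁆ = ⁅a, b⁆ * ⁅a', b'⁆ := by
  have k : ∀ c, Commute c a' → Commute c b' → Commute c ⁅a', b'⁆ := fun c h h' =>
    ((h.mul_right h').mul_right h.inv_right).mul_right h'.inv_right
  calc ⁅a * a', b * b'⁆ = a * (a' * b) * (b' * a'⁻¹ * (a⁻¹ * b'⁻¹)) * b⁻¹ := by
        rw [commutatorElement_def]; group
    _ = a * b * ⁅a', b'⁆ * a⁻¹ * b⁻¹ := by
        rw [← h3.eq, h2.inv_inv.eq, commutatorElement_def]; group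
    _ = _ := by
        rw [mul_assoc _ _ a⁻¹, ← (k a h1 h2).inv_left.eq, ← mul_assoc, mul_assoc _ _ b⁻¹,
          ← (k b h3 h4).inv_left.eq, commutatorElement_def a]; group

variable {ι Φ ι' Φ' κ : Type} [Fintype ι] [DecidableEq ι] [Fintype Φ] [Fintype ι'] [DecidableEq ι']
  [Fintype Φ'] {R : RootSys ι Φ} {R' : RootSys ι' Φ'}

/-- The folding of a root system along a symmetry. -/
structure Fold (R' : RootSys ι' Φ') (T : Sym R κ) (o : Φ → Φ') (L : (ι → ℤ) →+ (ι' → ℤ))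
    (sec : Φ' → Φ) (e : ι' → κ) : Prop where
  ln : ∀ r s, R.ln r = R.ln s
  α : ∀ r, R'.α (o r) = L (R.α r)
  ht : ∀ r, R'.ht (o r) = R.ht r
  sec : ∀ r, o (sec r) = r
  cyc : ∀ r s, o r = o s ↔ T.ρ.SameCycle r s
  lg : ∀ r, Lg R' (o r) ↔ T.ρ r = r
  sref : ∀ i r, o (T.s (e i) r) = R'.sref i (o r)
  pair : ∀ β, T.ρ β = β → ∀ r, R.pair β r = R'.pair (o β) (o r)
  tor : ∀ β, T.ρ β = β → ∃ γ, T.ρ γ = γ ∧ R.pair γ β = 1

variable {K : Type*} [Field K] {G : Type*} [Group G] {C : ChevSys R K G} {T : Sym R κ}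

/-- The third factor of the norm. -/
structure TwN (S : Twist C T) (φ : K →+* K) (τ : G →* G) (φ' : K → K) : Prop where
  fix : ∀ r, T.ρ r ≠ r → ∀ t, C.x r t * S.σ (C.x r t) * τ (C.x r t) ∈ S.Fix
  mem : ∀ r, T.ρ r ≠ r → ∀ t, τ (C.x r t) ∈ C.XS {s | s = T.ρ (T.ρ r) ∧ s ≠ r}
  eq : ∀ r, T.ρ r = r → ∀ t, τ (C.x r t) = C.x r (φ' t)
  tr : ∀ t, φ t = t → ∃ z, z + φ z + φ' z = t

theorem commute_XS (hl : ∀ r s, R.ln r = R.ln s) {A B : Set Φ}
    (h : ∀ r ∈ A, ∀ s ∈ B, s ≠ R.neg r ∧ ∀ k, R.α k ≠ R.α r + R.α s) {a b : G} (ha : a ∈ C.XS A)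
    (hb : b ∈ C.XS B) : Commute a b :=
  XS_induction (p := fun a => Commute a b) ha (Commute.one_left _) fun _ _ r hr t e =>
    e.mul_left (XS_induction (p := fun b => Commute (C.x r t) b) hb (Commute.one_right _)
      fun _ _ s hs u e => e.mul_right (C.commute_of_not_between (h r hr s hs).1
        (fun k hk => (h r hr s hs).2 k (add_of_between hl (h r hr s hs).1 hk)) t u))

namespace Fold

variable {o : Φ → Φ'} {L : (ι → ℤ) →+ (ι' → ℤ)} {sec : Φ' → Φ} {e : ι' → κ}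
  (f : Fold R' T o L sec e)
include f

theorem add {r s k : Φ} (h : R.α k = R.α r + R.α s) : R'.α (o k) = R'.α (o r) + R'.α (o s) := by
  rw [f.α, f.α, f.α, h, map_add]

theorem between {r s k : Φ} (h : R.Between r s k) : R'.Between (o r) (o s) (o k) := by
  obtain ⟨i, j, hi, hj, h⟩ := h
  exact ⟨i, j, hi, hj, by rw [f.α, f.α, f.α, h, map_add, map_nsmul, map_nsmul]⟩

theorem neg (r : Φ) : o (R.neg r) = R'.neg (o r) :=
  R'.α_inj (by rw [R'.α_neg, f.α, f.α, R.α_neg, map_neg])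

theorem isPos {r : Φ} : R'.IsPos (o r) ↔ R.IsPos r := by rw [isPos_iff_ht, isPos_iff_ht, f.ht]

theorem ρ (r : Φ) : o (T.ρ r) = o r := ((f.cyc _ _).2 (Perm.sameCycle_apply_right.2 (.refl _ _))).symm

theorem closed {A : Set Φ'} (h : R'.IsClosed A) : R.IsClosed {r | o r ∈ A} :=
  fun _ hr _ hs _ hk => h _ hr _ hs _ (f.between hk)

theorem closed_sub {a : Φ'} {A : Set Φ} (h : ∀ r ∈ A, o r = a) : R.IsClosed A := fun r hr s hs k hk => by
  have := f.between hk
  rw [h r hr, h s hs] at this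
  exact (not_between_self _ _ this).elim

theorem cv_pos {a : Φ'} {r : Φ} (h : o r = a) : 0 < (R'.cv a).comp L (R.α r) := by
  rw [AddMonoidHom.comp_apply, ← f.α, h, ← RootSys.pair, pair_self]
  exact two_pos

theorem commute {a : Φ'} {x y : G} (hx : x ∈ C.XS {r | o r = a}) (hy : y ∈ C.XS {r | o r = a}) :
    Commute x y := commute_XS f.ln (fun r hr s hs => ⟨fun e => R'.neg_ne_self a (by
      rw [← hr, ← f.neg, ← e, hs, hr]), fun k e => not_between_self a (o k) (by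
        have := f.between (between_of_add e)
        rwa [hr, hs] at this)⟩) hx hy

theorem eq_of_fix {r s : Φ} (h : T.ρ r = r) (e : o s = o r) : s = r :=
  (((f.cyc _ _).1 e.symm).eq_of_left h).symm

variable {S : Twist C T} {φ : K →+* K} {ϕ : G →* G} {H : Subgroup G} (h : S.TwF φ ϕ H)
include h

theorem lift {w : Perm Φ'} (hw : w ∈ R'.W) :
    ∃ n ∈ H, ∃ v c, C.Acts n v c ∧ ∀ r, o (v r) = w (o r) := by
  suffices ∃ v ∈ T.W1, ∀ r, o (v r) = w (o r) by
    obtain ⟨v, h1, h2⟩ := this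
    obtain ⟨n, h3, -, c, h4, -⟩ := h.exists_acts h1
    exact ⟨n, h3, v, c, h4, h2⟩
  induction hw using Subgroup.closure_induction with
  | mem w hw => obtain ⟨i, rfl⟩ := hw; exact ⟨_, Sym.s_mem _, f.sref i⟩
  | one => exact ⟨1, one_mem _, fun _ => rfl⟩
  | mul a b _ _ ha hb =>
    obtain ⟨u, h1, h2⟩ := ha
    obtain ⟨v, h3, h4⟩ := hb
    exact ⟨u * v, mul_mem h1 h3, fun r => by simp [h2, h4]⟩
  | inv a _ ha =>
    obtain ⟨u, h1, h2⟩ := ha
    exact ⟨u⁻¹, inv_mem h1, fun r => a.injective (by simp [← h2])⟩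

theorem mem_of_fix {a : Φ'} {g : G} (h1 : g ∈ C.XS {r | o r = a}) (h2 : g ∈ S.Fix) : g ∈ H := by
  by_cases h3 : R'.IsPos a
  · exact h.tw.U_le ⟨C.XS_mono (T := {r | R.IsPos r})
      (fun r (hr : o r = a) => f.isPos.1 (hr ▸ h3)) h1, h2⟩
  · exact h.tw.V_le ⟨C.XS_mono (T := {r | ¬ R.IsPos r})
      (fun r (hr : o r = a) e => h3 (hr ▸ f.isPos.2 e)) h1, h2⟩

theorem dec {A : Set Φ'} (hA : R'.IsClosed A) (hA' : ∀ a ∈ A, R'.IsPos a) {M : Subgroup G}
    (hM : ∀ a ∈ A, C.XS {r | o r = a} ⊓ H ≤ M) : C.XS {r | o r ∈ A} ⊓ H ≤ M := by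
  classical
  have key : ∀ U : Finset Φ', (∀ a ∈ U, a ∈ A ∧ ∀ b ∈ A, R'.ht a < R'.ht b → b ∈ U) →
      R'.IsClosed U ∧ C.XS {r | o r ∈ U} ⊓ H ≤ M := fun U => by
    have cl : ∀ U : Finset Φ', (∀ a ∈ U, a ∈ A ∧ ∀ b ∈ A, R'.ht a < R'.ht b → b ∈ U) →
        R'.IsClosed U := fun U hU a ha b hb k hk => (hU a ha).2 k (hA a (hU a ha).1 b (hU b hb).1 k hk) (by
      have := ht_between hk (hA' a (hU a ha).1) (hA' b (hU b hb).1)
      have := (hA' b (hU b hb).1).ht_pos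
      omega)
    induction U using Finset.induction_on_min_value R'.ht with
    | empty => exact fun hU => ⟨cl _ hU, by simp [C.XS_empty]⟩
    | insert a U ha hm ih =>
      refine fun hU => ⟨cl _ hU, fun g hg => ?_⟩
      obtain ⟨h1, h2⟩ := ih fun b hb => by
        obtain ⟨h1, h2⟩ := hU b (Finset.mem_insert_of_mem hb)
        refine ⟨h1, fun k hk hk' => (Finset.mem_insert.1 (h2 k hk hk')).resolve_left ?_⟩
        rintro rfl
        exact absurd (hm b hb) (by omega)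
      have h3 : ∀ r, o r ∈ insert a U → R.IsPos r := fun r hr => f.isPos.1 (hA' _ (hU _ hr).1)
      obtain ⟨u, hu, v, hv, rfl⟩ := C.exists_mul_of_mem_XS (f.closed (cl _ hU)) (f := htL ι)
        (fun r hr => (h3 r hr).ht_pos) (o · = a) hg.1
      have hu' := C.XS_mono (T := {r | o r = a}) (fun _ h => h.2) hu
      have hv' := C.XS_mono (T := {r | o r ∈ U}) (fun _ h => (Finset.mem_insert.1 h.1).resolve_left h.2) hv
      have h4 := f.mem_of_fix h hu' (h.fix_left (f.closed_sub fun _ h => h) (f.closed h1)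
        (fun r hr => h3 r (by simp [show o r = a from hr])) (fun r hr => h3 r (Finset.mem_insert_of_mem hr))
        (fun r hr => (f.ρ r).trans hr) (fun r hr => by simpa [f.ρ] using hr)
        (fun r (h1 : o r = a) (h2 : o r ∈ U) => ha (h1 ▸ h2)) hu' hv' (h.tw.le_fix hg.2))
      exact mul_mem (hM a (hU a (by simp)).1 ⟨hu', h4⟩) (h2 ⟨hv', (mul_mem_cancel_left h4).1 hg.2⟩)
  simpa using (key (Finset.univ.filter (· ∈ A)) (by simp +contextual)).2

theorem comm {a b : Φ'} (hab : b ≠ R'.neg a) {x y : G} (hx : x ∈ C.XS {r | o r = a} ⊓ H)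
    (hy : y ∈ C.XS {r | o r = b} ⊓ H) {M : Subgroup G}
    (hM : ∀ k, R'.Between a b k → C.XS {r | o r = k} ⊓ H ≤ M) : ⁅x, y⁆ ∈ M := by
  obtain ⟨l, h1, h2⟩ := exists_pos_pair hab
  obtain ⟨w, hw, h3⟩ := R'.exists_W_pos l
  obtain ⟨n, hn, v, c, h4, h5⟩ := f.lift h hw
  have hw' := isAut_of_mem_W hw
  have cl : R'.IsClosed {k | R'.Between a b k} := fun r hr s hs k hk => by
    obtain ⟨i, j, hi, hj, e⟩ := hr
    obtain ⟨i', j', hi', hj', e'⟩ := hs
    obtain ⟨p, q, hp, hq, e''⟩ := hk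
    exact ⟨p * i + q * i', p * j + q * j', by positivity, by positivity, by rw [e'', e, e']; module⟩
  have k1 : ∀ r k, o r = a ∨ o r = b → R'.Between a b (o k) → k ≠ R.neg r ∧
      ∀ m, R.Between r k m → R'.Between a b (o m) := fun r k hr hk => by
    refine ⟨fun e => ?_, fun m hm => ?_⟩
    · have := isClosed_lt l a h1 b h2 _ hk
      rw [e, f.neg, Set.mem_ofPred_eq, R'.α_neg, map_neg] at this
      rcases hr with hr | hr <;> rw [hr] at this <;> omega
    · have := f.between hm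
      rcases hr with hr | hr <;> rw [hr] at this
      exacts [hk.trans this, (hk.symm.trans this).symm]
  have k2 : C.XS {r | o r = a ∨ o r = b} ≤ Subgroup.normalizer (C.XS {k | R'.Between a b (o k)} : Set G) :=
    C.XS_le_normalizer (fun r hr e => (k1 r _ hr e).1 rfl) fun r hr k hk => (k1 r k hr hk).2
  have k3 : ⁅x, y⁆ ∈ C.XS {k | R'.Between a b (o k)} := by
    have hx' := hx.1
    have hy' := hy.1
    clear hx hy
    refine XS_induction (p := fun x => ⁅x, y⁆ ∈ C.XS _) hx' (by simp) fun g hg r hr t e => ?_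
    rw [show ⁅g * C.x r t, y⁆ = g * ⁅C.x r t, y⁆ * g⁻¹ * ⁅g, y⁆ by simp [commutatorElement_def, mul_assoc]]
    refine mul_mem ((Subgroup.mem_normalizer_iff.1 (k2 (C.XS_mono (fun _ h => .inl h) hg)) _).1 ?_) e
    refine XS_induction (p := fun y => ⁅C.x r t, y⁆ ∈ C.XS _) hy' (by simp) fun g hg s hs u e => ?_
    rw [show ⁅C.x r t, g * C.x s u⁆ = ⁅C.x r t, g⁆ * (g * ⁅C.x r t, C.x s u⁆ * g⁻¹) by
      simp [commutatorElement_def, mul_assoc]]
    refine mul_mem e ((Subgroup.mem_normalizer_iff.1 (k2 (C.XS_mono (fun _ h => .inr h) hg)) _).1 ?_)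
    have := C.comm_mem (T := {k | R'.Between a b (o k)}) (r := s) (s := r) (fun e => hab (by
      rw [← hr, e, f.neg, RootSys.neg_neg, hs])) (fun k hk => by
        have := f.between hk.symm
        rwa [hr, hs] at this) (-u) (-t)
    simpa only [C.x_neg, inv_inv, commutatorElement_def] using this
  have k4 := f.dec h (A := {k | R'.Between (w a) (w b) k}) (fun r hr s hs k hk => by
    obtain ⟨r, rfl⟩ := w.surjective r
    obtain ⟨s, rfl⟩ := w.surjective s
    obtain ⟨k, rfl⟩ := w.surjective k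
    exact hw'.between.2 (cl r (hw'.between.1 hr) s (hw'.between.1 hs) k (hw'.between.1 hk)))
    (fun k hk => hk.isPos (h3 a h1) (h3 b h2)) (M := M.map (MulAut.conj n).toMonoidHom)
    (fun k hk g hg => by
      obtain ⟨k, rfl⟩ := w.surjective k
      refine ⟨n⁻¹ * g * n, hM k (hw'.between.1 hk) ⟨h4.inv_conj_mem (fun r hr => w.injective ?_) hg.1,
        H.mul_mem (H.mul_mem (H.inv_mem hn) hg.2) hn⟩, by simp [mul_assoc]⟩
      rw [← h5, hr]) (x := n * ⁅x, y⁆ * n⁻¹) ⟨h4.conj_mem (fun r hr => by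
        rw [Set.mem_ofPred_eq, h5]; exact hw'.between.2 hr) k3, H.mul_mem (H.mul_mem hn (H.mul_mem
          (H.mul_mem (H.mul_mem hx.2 hy.2) (H.inv_mem hx.2)) (H.inv_mem hy.2))) (H.inv_mem hn)⟩
  obtain ⟨z, hz, e⟩ := k4
  rwa [show z = ⁅x, y⁆ by simpa using e] at hz

end Fold

end Cfsg.Lib.MD
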