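import Cfsg.Agent.Lib.MD.TwE6
import Cfsg.Agent.Lib.MD.G2
import Cfsg.Agent.Lib.Chev.OverTwD
import Cfsg.Agent.Lib.Unitary.Field

/-!
The smallest degree of a nontrivial representation of ³D₄(q).
-/

set_option autoImplicit false
set_option linter.unusedSectionVars false
set_option maxRecDepth 100000

namespace Cfsg.Lib.MD

open Cfsg.Lib.Chev Cfsg.Lib.Chev.RootSys Cfsg.Lib.Chev.PreSys Cfsg.Lib.Chev.ChevSys Cfsg.Lib.Twisted
  Cfsg.Lib.Twisted.Twist Equiv Cfsg.Lie Cfsg.Lib.Char Cfsg.Lib.CharDeg Cfsg.Lib.Sz Module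
open scoped commutatorElement

/-- The folding map on roots. -/
def oD4 : List (Fin 12) := [0, 1, 2, 2, 3, 4, 2, 3, 3, 5, 4, 4, 7, 7, 6, 8, 8, 9, 7, 8, 9, 9, 10, 11]

/-- A section of the folding map. -/
def sD4 : List (Fin 24) := [0, 1, 2, 4, 5, 9, 14, 18, 15, 17, 22, 23]

/-- The folding map on coordinates. -/
def lD4 : (Fin 4 → ℤ) →+ (Fin 2 → ℤ) where
  toFun v := ![v 0 + v 2 + v 3, v 1]
  map_zero' := by ext i; fin_cases i <;> simp
  map_add' u v := by ext i; fin_cases i <;> simp; ring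

theorem threeD4 : ∀ r s : Fin 24, lget 0 s oD4 = lget 0 r oD4 ↔
    s = r ∨ s = symD4.ρ r ∨ s = symD4.ρ (symD4.ρ r) := by decide +kernel

theorem foldD4 : Fold mG2 symD4 (fun r => lget 0 r oD4) lD4 (fun r => lget 0 r sD4) ![1, 0] where
  ln r s := (ln_D4 r).trans (ln_D4 s).symm
  α := by decide +kernel
  ht := by decide +kernel
  sec := by decide +kernel
  cyc r s := ⟨fun e => by
      have h1 := Perm.sameCycle_apply_right.2 (Perm.SameCycle.refl symD4.ρ r)
      obtain rfl | rfl | rfl := (threeD4 r s).1 e.symm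
      exacts [.refl _ _, h1, Perm.sameCycle_apply_right.2 h1], fun e => by
    obtain ⟨n, -, rfl⟩ := e.exists_pow_eq'
    clear e
    induction n with
    | zero => rfl
    | succ n ih => rw [pow_succ', Perm.mul_apply, ih]; exact ((threeD4 _ _).2 (.inr (.inl rfl))).symm⟩
  lg := by decide +kernel
  sref i r := mG2.α_inj (by
    have : ∀ r : Fin 24, mG2.α (lget 0 r oD4) = lD4 (RD4.α r) := by decide +kernel
    rw [α_sref, this, this, keysD4.s_eq, α_wp]
    revert i r
    decide +kernel)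
  pair := by decide +kernel
  tor := by decide +kernel

/-- The exponents of the root subgroups. -/
noncomputable def eG2 (r : Fin 12) : ℕ := if mG2.ln r = 3 then 1 else 3

theorem shortG2 : ∀ a : Fin 12, (Lg mG2 a → eG2 a = 1) ∧ (¬ Lg mG2 a → eG2 a = 3) := by decide +kernel

theorem word_D4 {K : Type*} [Field K] (a b c t : K) : ∃ d e f g h i : K,
    xN checkedD4 14 t * wd checkedD4 [(18, a), (13, b), (12, c)] =
      wd checkedD4 [(18, a), (13, b), (12, c)] * (xN checkedD4 14 t * (xN checkedD4 22 (t * (a * b * c)) *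
        wd checkedD4 [(15, d), (16, e), (17, f), (19, g), (20, h), (21, i)])) := by
  simp only [wd_cons, wd_nil, mul_assoc, one_mul, sw1 18 14 19 (-1), sw1 13 14 16 1, sw1 12 14 15 1,
    sw1 13 19 21 1, sw1 12 19 20 1, sw1 12 16 17 1, sw1 12 21 22 1,
    sw0 22 19, sw0 22 16, sw0 22 15, sw0 22 17, sw0 22 20, sw0 22 21]
  exact ⟨_, _, _, _, _, _, congrArg _ (congrArg _ (congrArg _ (congrArg _
    (congrArg₂ _ (congrArg _ (by push_cast; ring)) rfl))))⟩

theorem boundTD {K : Type*} [Field K] [Fintype K] {q : ℕ} (hq : IsPrimePow q)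
    (hK : Fintype.card K = q ^ 3) (k : ℕ) (ρ : Representation ℂ (KD4 K q) (Fin k → ℂ))
    (hρ : ρ.IsIrreducible) (hk : 2 ≤ k) : q * (q ^ 4 - q ^ 2 + 1) ≤ k := by
  obtain ⟨S, hS⟩ := exists_twist_D4 hq hK
  obtain ⟨φ, hφ⟩ := exists_frob hq hK
  obtain ⟨ϕ, h1, -⟩ := checkedD4.exists_fieldHom (φ : K →+* K)
  have h6 := hq.two_le
  have h := twF_D4 (φ := (φ : K →+* K)) hφ hK hS h1
  have f := foldD4
  have h3 : ∀ t, (φ : K →+* K) ((φ : K →+* K) ((φ : K →+* K) t)) = t :=
    fun t => by simpa [h.θ] using θθθ_D4 hK hS 0 0 0 t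
  have n := f.twN_three h (sysG_grp _ _) (by rw [symD4_π]; decide) (by decide +kernel) h3
    (by simpa [hφ] using (exists_ne_pow h6 (by decide) hK).2)
  have hF := card_FF (φ := (φ : K →+* K)) h6 (by decide) hK hφ
  let X := f.rg h n base_D4.comm (d := 3) (by rw [hF, Nat.card_eq_fintype_card, hK]) eG2
    (fun a => (shortG2 a).1) fun a => (shortG2 a).2
  have x6 : ∀ t, (X.x 6 t).1 = xN checkedD4 14 (t : K) := fun t =>
    (congrArg Subtype.val (dif_pos (by decide +kernel))).trans (x_D4 14 _)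
  have x10 : ∀ t, (X.x 10 t).1 = xN checkedD4 22 (t : K) := fun t =>
    (congrArg Subtype.val (dif_pos (by decide +kernel))).trans (x_D4 22 _)
  have x11 : ∀ t, (X.x 11 t).1 = (CD4 K).x 23 t := fun t =>
    congrArg Subtype.val (dif_pos (by decide +kernel))
  obtain ⟨ψ, hψ⟩ := exists_addChar_ne_one (FF (φ : K →+* K))
  have := (simple_D4 hK hS h6).1
  have h2 := RG.bound_G2 (S := X) (ρ := ρ) hψ (m := 3) (show eG2 8 = 3 by decide +kernel)
    (show eG2 9 = 3 by decide +kernel) (t := 1) (fun e => ?_) ?_ fun c hc => ?_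
  rotate_left
  · have h2 := congrArg Subtype.val
      (injective_of_isIrreducible hρ (by simpa using hk) (e.trans (map_one ρ).symm))
    exact one_ne_zero (faithful_D4.x_inj ((x11 1).symm.trans (h2.trans ((CD4 K).x_zero _).symm)))
  · obtain ⟨u, hu⟩ := exists_sq_ne_one (K := K) (by
      rw [Nat.card_eq_fintype_card, hK]
      exact (by decide : 3 < 2 ^ 3).trans_le (Nat.pow_le_pow_left h6 3))
    have h0 : ∀ u : Kˣ, ((u ^ q) ^ q) ^ q = u := fun u => Units.ext (by
      simp [← pow_mul, ← sq, ← pow_succ, pow_pow_eq_self hK])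
    have h1 : ∀ u : Kˣ, u ^ 2 ≠ 1 → (u ^ q) ^ 2 ≠ 1 := fun u hu e => hu (by
      rw [← h0 (u ^ 2), ← pow_mul u 2, mul_comm 2, pow_mul, e, one_pow, one_pow])
    have h4 := acts_tor (adjoint_D4 (K := K)) ![u, 1, u ^ q, (u ^ q) ^ q]
    refine ⟨⟨_, ((H_inf_D4 hK hS).ge ⟨![u, 1, u ^ q, (u ^ q) ^ q], by simp [mem_TFix_D4 hS, h0], rfl⟩).2⟩,
      fun r a => acts_iff h4 (fun s => by simp) a, fun t => Subtype.ext ?_, fun a ha e => Subtype.ext
        (eq_one_of_acts_fixed faithful_D4 (f.closed_sub fun _ h => h)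
          (fun r hr => f.isPos.1 (hr.symm ▸ (by decide +kernel : mG2.IsPos 7))) h4 (fun r hr => ?_)
          ha (congrArg Subtype.val e))⟩
    · have h5 : ∀ i, RD4.pair (RD4.simple i) 23 = ![0, 1, 0, 0] i := by decide +kernel
      simp [x11, h4.conj', chr, h5, Fin.prod_univ_succ]
    · obtain ⟨j, hj, rfl⟩ := (by decide +kernel : ∀ r : Fin 24, lget 0 r oD4 = 7 →
        ∃ j ∈ [0, 2, 3], RD4.simple j = r) r hr
      rw [Twisted.chr_simple]
      clear hr
      revert j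
      simpa [RD4_A, Fin.prod_univ_succ] using ⟨hu, h1 _ hu, h1 _ (h1 _ hu)⟩
  · obtain ⟨q, rfl⟩ := Nat.exists_eq_add_of_le' h6
    obtain ⟨s, -, hs⟩ := Unitary.exists_pow_eq_of_pow_eq_one (F := K) (a := q + 1)
      (b := 1 + (q + 2) + (q + 2) * (q + 2)) (x := c) (by
        rw [Nat.card_eq_fintype_card, hK]; exact Nat.sub_eq_of_eq_add (by ring))
      ((mul_eq_right₀ fun e => hc (Subtype.ext e)).1 ((pow_succ _ _).symm.trans ((hφ c).symm.trans c.2)))
    have h4 := e1_mem (φ := (φ : K →+* K)) hφ s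
    refine ⟨⟨_, h4⟩, wd_mem_XS (by simpa using (by decide +kernel)), fun t => ?_⟩
    obtain ⟨a, b, d, e, g, i, h5⟩ := word_D4 s ((φ : K →+* K) s) ((φ : K →+* K) ((φ : K →+* K) s)) t
    rw [show s * (φ : K →+* K) s * (φ : K →+* K) ((φ : K →+* K) s) = c by
      simp [hφ, ← hs, pow_add, pow_mul]] at h5
    have h7 := mul_mem (X.x 6 t).2 h4
    rw [x6, h5, mul_mem_cancel_left h4, mul_mem_cancel_left (x6 t ▸ (X.x 6 t).2),
      mul_mem_cancel_left (x10 (t * c) ▸ (X.x 10 (t * c)).2)] at h7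
    obtain ⟨y, hy, h8⟩ := f.dec h (A := {8, 9, 11}) (by
        rintro r (rfl | rfl | rfl) s (rfl | rfl | rfl) k hk <;> simpa using (btG [8, 9, 11]).2 k hk)
      (by simpa using (by decide +kernel)) (M := (X.X 8 ⊔ X.X 9 ⊔ X.X 11).map (Subgroup.subtype _))
      (fun a ha g hg => ⟨⟨g, hg.2⟩, (show X.X a ≤ _ by
        rcases ha with rfl | rfl | rfl
        exacts [le_sup_left.trans le_sup_left, le_sup_right.trans le_sup_left, le_sup_right]) hg.1, rfl⟩)
      ⟨wd_mem_XS (by simpa using (by decide +kernel)), h7⟩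
    exact ⟨y, hy, Subtype.ext (by simpa [x6, x10, show y.1 = _ from h8] using h5)⟩
  have h3 : k ∣ Nat.card (KD4 K q) := (isIrrCharacter_character ρ).degree_dvd_card (by simp)
  rw [card_D4 hK hS (by omega)] at h3
  simp only [finrank_fin_fun, hF] at h2
  by_contra! h7
  obtain ⟨q, rfl⟩ := Nat.exists_eq_add_of_le' h6
  have h4 : (q + 2) ^ 4 - (q + 2) ^ 2 = (q + 2) ^ 2 * ((q + 1) * (q + 3)) :=
    Nat.sub_eq_of_eq_add (by ring)
  refine arithTD hq ?_ h7 (h3.trans ⟨(q + 2) ^ 2 + 1, ?_⟩)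
  · rw [h4]
    rcases h2 with ⟨d, h8, h9⟩ | h8
    · obtain ⟨e, rfl⟩ := Nat.exists_eq_add_of_le (Nat.le_of_mul_le_mul_left
        (show (q + 2) * (2 * (q + 2) ^ 3) ≤ _ from le_of_eq_of_le (by ring) h8) (by omega))
      refine le_trans ?_ (Nat.add_le_add_right h9 1)
      rw [show q + 2 - 1 = q + 1 from rfl]
      ring_nf
      omega
    · refine le_trans (le_of_eq ?_) (Nat.add_le_add_right h8 1)
      rw [show q + 2 - 1 = q + 1 from rfl]
      ring
  · have h : ∀ n, 1 ≤ (q + 2) ^ n := fun n => Nat.one_le_pow n _ (by omega)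
    zify [h]
    ring

end Cfsg.Lib.MD
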