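import Cfsg.Agent.Lib.MD.TwRG
import Cfsg.Agent.Lib.MD.DatF4
import Cfsg.Agent.Lib.MD.ArE6
import Cfsg.Agent.Lib.Chev.OverTwE
import Cfsg.Agent.Lib.Twisted.AutE6D4

/-!
The smallest degree of a nontrivial representation of ²E₆(q).
-/

set_option autoImplicit false
set_option linter.unusedSectionVars false
set_option maxRecDepth 100000

namespace Cfsg.Lib.MD

open Cfsg.Lib.Chev Cfsg.Lib.Chev.RootSys Cfsg.Lib.Chev.PreSys Cfsg.Lib.Chev.ChevSys Cfsg.Lib.Twisted
  Cfsg.Lib.Twisted.Twist Equiv Cfsg.Lie Cfsg.Lib.Char Cfsg.Lib.CharDeg Cfsg.Lib.Sz Module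
open scoped commutatorElement

section

variable {ι Φ ι' Φ' κ : Type} [Fintype ι] [DecidableEq ι] [Fintype Φ] [Fintype ι'] [DecidableEq ι']
  [Fintype Φ'] {R : RootSys ι Φ} {R' : RootSys ι' Φ'}
  {K : Type*} [Field K] {G : Type*} [Group G] {C : ChevSys R K G} {T : Sym R κ}
  {o : Φ → Φ'} {L : (ι → ℤ) →+ (ι' → ℤ)} {sec : Φ' → Φ} {e : ι' → κ}
  {S : Twist C T} {φ : K →+* K} {ϕ : G →* G} {H : Subgroup G}

theorem RG.gen_long {F : Type*} [Field F] [Finite F] [Finite G] (S : RG R F G) {r s k : Φ}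
    (hk : Lg R k) (e : R.α k = R.α r + R.α s) (h : S.e r ≠ 0) : S.X k ≤ ⁅S.X r, S.X s⁆ := fun g hg => by
  obtain ⟨t, rfl⟩ := (S.mem_X k hk g).1 hg
  have : Nontrivial (S.X r) := Finite.one_lt_card_iff_nontrivial.1
    (S.card_X r ▸ Nat.one_lt_pow h Finite.one_lt_card)
  obtain ⟨a, ha⟩ := exists_ne (1 : S.X r)
  obtain ⟨b, hb, e⟩ := S.nd k r s hk e a a.2 (fun e => ha (Subtype.ext e)) t
  exact e ▸ Subgroup.commutator_mem_commutator a.2 hb

theorem Fold.twN_two (f : Fold R' T o L sec e) (h : S.TwF φ ϕ H) (htop : C.grp = ⊤)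
    (hπ : ∀ i, T.π (T.π i) = i) (hφ : ∀ t, φ (φ t) = t) (h1 : ∃ t, φ t ≠ t) :
    TwN S φ 1 0 where
  fix r _ t := by
    have k : ∀ g, S.σ (S.σ g) = g := fun g => C.grp_le_of_simple
      (K := (S.σ.comp S.σ).eqLocus (MonoidHom.id G))
      (fun i t => show S.σ (S.σ _) = _ by simp [S.σ_pos, h.θ, hπ, hφ])
      (fun i t => show S.σ (S.σ _) = _ by simp [S.σ_neg, h.θ, hπ, hφ]) (htop.ge (Subgroup.mem_top g))
    rw [mem_Fix, MonoidHom.one_apply, mul_one, map_mul, k]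
    exact (f.commute (a := o r) (C.XS_mono (fun s (hs : s = _) => hs ▸ f.ρ r) (Fold.σ_mem r t))
      (C.x_mem (S := {s | o s = o r}) rfl t)).eq
  mem _ _ _ := one_mem _
  eq _ _ _ := by simp
  tr t ht := by
    obtain ⟨z, hz⟩ : ∃ z, z + φ z ≠ 0 := by
      by_contra! h2
      obtain ⟨u, hu⟩ := h1
      have h3 := h2 1
      rw [map_one] at h3
      exact hu (by linear_combination h2 u - u * h3)
    refine ⟨t * z / (z + φ z), ?_⟩
    simp only [map_div₀, map_mul, map_add, hφ, ht, add_comm (φ z), Pi.zero_apply]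
    field_simp
    ring

theorem Fold.twN_three (f : Fold R' T o L sec e) (h : S.TwF φ ϕ H) (htop : C.grp = ⊤)
    (hπ : ∀ i, T.π (T.π (T.π i)) = i) (hρ : ∀ r, T.ρ (T.ρ (T.ρ r)) = r) (hφ : ∀ t, φ (φ (φ t)) = t)
    (h1 : ∃ t, φ t ≠ t) : TwN S φ (S.σ.comp S.σ) fun t => φ (φ t) where
  fix r _ t := by
    have k : ∀ g, S.σ (S.σ (S.σ g)) = g := fun g => C.grp_le_of_simple
      (K := (S.σ.comp (S.σ.comp S.σ)).eqLocus (MonoidHom.id G))
      (fun i t => show S.σ (S.σ (S.σ _)) = _ by simp [S.σ_pos, h.θ, hπ, hφ])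
      (fun i t => show S.σ (S.σ (S.σ _)) = _ by simp [S.σ_neg, h.θ, hπ, hφ])
      (htop.ge (Subgroup.mem_top g))
    have k1 : ∀ g ∈ C.XS {s | o s = o r}, S.σ g ∈ C.XS {s | o s = o r} :=
      fun g => S.σ_mem_XS fun s hs => (f.ρ s).trans hs
    have k2 := C.x_mem (S := {s | o s = o r}) (r := r) rfl t
    rw [mem_Fix, MonoidHom.comp_apply, map_mul, map_mul, k, mul_assoc (C.x r t)]
    exact (f.commute (mul_mem (k1 _ k2) (k1 _ (k1 _ k2))) k2).eq
  mem r hr t := S.σ_mem_XS (A := {T.ρ r}) (fun s (hs : s = _) => And.intro (congrArg T.ρ hs) fun e =>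
    hr (by rw [hs] at e; simpa [e] using hρ r)) (Fold.σ_mem r t)
  eq r hr t := by rw [MonoidHom.comp_apply, h.σ_x hr, h.σ_x hr]
  tr t ht := by
    obtain ⟨z, hz⟩ : ∃ z, z + φ z + φ (φ z) ≠ 0 := by
      by_contra! h2
      obtain ⟨u, hu⟩ := h1
      have h3 := h2 1
      have h4 := h2 (u * u)
      have h5 := h2 u
      simp only [map_one, map_mul] at h3 h4
      have h6 : (u - φ (φ u)) * (u - φ u) = 0 := by
        linear_combination h4 - (φ u + φ (φ u)) * h5 + φ u * φ (φ u) * h3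
      rcases mul_eq_zero.1 h6 with h7 | h7
      · exact hu ((congrArg φ (sub_eq_zero.1 h7)).trans (hφ u))
      · exact hu (sub_eq_zero.1 h7).symm
    refine ⟨t * z / (z + φ z + φ (φ z)), ?_⟩
    simp only [map_div₀, map_mul, map_add, hφ, ht]
    rw [show φ z + φ (φ z) + z = z + φ z + φ (φ z) by ring,
      show φ (φ z) + z + φ z = z + φ z + φ (φ z) by ring]
    field_simp

theorem card_FF [Fintype K] {q n : ℕ} (hq : 1 < q) (hn : n ≠ 1) (hK : Fintype.card K = q ^ n)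
    (hφ : ∀ t, φ t = t ^ q) : Nat.card (FF φ) = q :=
  (Nat.card_congr (Equiv.subtypeEquivRight fun t => by simp [hφ])).trans (exists_ne_pow hq hn hK).1

end

/-- The folding map on roots. -/
def oE6 : List (Fin 48) := [0, 1, 2, 3, 7, 3, 4, 8, 5, 9, 11, 6, 10, 12, 13, 14, 7, 8, 15, 9, 16, 18,
  11, 18, 21, 23, 10, 17, 19, 20, 12, 19, 22, 13, 20, 14, 33, 27, 34, 25, 28, 35, 27, 28, 30, 37, 24, 26,
  29, 36, 29, 31, 38, 32, 39, 40, 33, 34, 35, 37, 41, 36, 38, 42, 39, 43, 44, 40, 44, 45, 46, 47]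

/-- A section of the folding map. -/
def sE6 : List (Fin 72) := [0, 1, 2, 3, 6, 8, 11, 4, 7, 9, 12, 10, 13, 14, 15, 18, 20, 27, 21, 28, 29,
  24, 32, 25, 46, 39, 47, 37, 40, 48, 44, 51, 53, 36, 38, 41, 49, 45, 52, 54, 55, 60, 63, 65, 66, 69, 70, 71]

/-- The folding map on coordinates. -/
def lE6 : (Fin 6 → ℤ) →+ (Fin 4 → ℤ) where
  toFun v := ![v 0 + v 5, v 2 + v 4, v 3, v 1]
  map_zero' := by ext i; fin_cases i <;> simp
  map_add' u v := by ext i; fin_cases i <;> simp <;> ring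

theorem twoE6 : ∀ r s : Fin 72, lget 0 s oE6 = lget 0 r oE6 ↔ s = r ∨ s = symE6.ρ r := by
  decide +kernel

theorem foldE6 : Fold mF4 symE6 (fun r => lget 0 r oE6) lE6 (fun r => lget 0 r sE6) ![3, 2, 1, 0] where
  ln r s := (ln_E6 r).trans (ln_E6 s).symm
  α := by decide +kernel
  ht := by decide +kernel
  sec := by decide +kernel
  cyc r s := ⟨fun e => by
      obtain rfl | rfl := (twoE6 r s).1 e.symm
      exacts [.refl _ _, Perm.sameCycle_apply_right.2 (.refl _ _)], fun e => by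
    obtain ⟨n, -, rfl⟩ := e.exists_pow_eq'
    clear e
    induction n with
    | zero => rfl
    | succ n ih => rw [pow_succ', Perm.mul_apply, ih]; exact ((twoE6 _ _).2 (.inr rfl)).symm⟩
  lg := by decide +kernel
  sref i r := mF4.α_inj (by
    have : ∀ r : Fin 72, mF4.α (lget 0 r oE6) = lE6 (RE6.α r) := by decide +kernel
    rw [α_sref, this, this, keysE6.s_eq, α_wp]
    revert i r
    decide +kernel)
  pair := by decide +kernel
  tor := by decide +kernel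

theorem shortF4 : ∀ a : Fin 48, (¬ Lg mF4 a → mF4.ln a = 1) ∧ (Lg mF4 a → eF4 a = 1) ∧
    (¬ Lg mF4 a → eF4 a = 2) ∧ eF4 a ≠ 0 := by decide +kernel

theorem liftF4 : ∀ a b : Fin 48, mF4.ln a = 1 → mF4.ln b = 1 → mF4.pair a b = -1 →
    RE6.pair (lget 0 a sE6) (lget 0 b sE6) = -1 ∨
      RE6.pair (lget 0 a sE6) (symE6.ρ (lget 0 b sE6)) = -1 := by decide +kernel

theorem boundTE {K : Type*} [Field K] [Fintype K] {q : ℕ} (hq : IsPrimePow q)
    (hK : Fintype.card K = q ^ 2) (k : ℕ) (ρ : Representation ℂ (KE6 K q) (Fin k → ℂ))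
    (hρ : ρ.IsIrreducible) (hk : 2 ≤ k) : q * (q ^ 6 - q ^ 3 + 1) * (q ^ 4 + 1) ≤ k := by
  obtain ⟨S, hS⟩ := exists_twist_E6 hq hK
  obtain ⟨φ, hφ⟩ := exists_frob hq hK
  obtain ⟨ϕ, h1, -⟩ := checkedE6.exists_fieldHom (φ : K →+* K)
  have h6 := hq.two_le
  have h := twF_E6 (φ := (φ : K →+* K)) hφ hK hS h1
  have f := foldE6
  have n := f.twN_two h (sysG_grp _ _) (by rw [symE6_π]; decide)
    (fun t => by simpa [h.θ] using θθ_E6 hK hS 0 0 t) (by simpa [hφ] using (exists_ne_pow h6 (by decide) hK).2)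
  have hF := card_FF (φ := (φ : K →+* K)) h6 (by decide) hK hφ
  let X := f.rg h n base_E6.comm (d := 2) (by rw [hF, Nat.card_eq_fintype_card, hK]) eF4
    (fun a => (shortF4 a).2.1) fun a => (shortF4 a).2.2.1
  obtain ⟨ψ, hψ⟩ := exists_addChar_ne_one (FF (φ : K →+* K))
  have := (simple_E6 hK hS h6).1
  have hβ : Lg mF4 47 := by decide +kernel
  have h2 := RG.bound (S := X) (ρ := ρ) hψ combF4 (fun a b c e e' => ?_) hβ (t := 1) (fun e => ?_) decF4
    (by decide +kernel) sumF4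
  rotate_left
  · by_cases hc : Lg mF4 c
    · exact X.gen_long hc e (shortF4 a).2.2.2
    have h2 := ln_of_comb (R := mF4) (k := c) (r := a) (s := b) (i := 1) (j := 1) (by simpa using e)
    have h3 := (shortF4 c).1 hc
    have h4 : ¬ Lg mF4 a := fun ha => by
      have := ha.ge_neg_one (s := b) fun e' => mF4.α_ne_zero c (by rw [e, e', mF4.α_neg, add_neg_cancel])
      exact hc fun s => (ha s).trans (by nlinarith [mF4.ln_pos a])
    have h5 := (shortF4 a).1 h4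
    have h7 : ¬ Lg mF4 b := fun hb => h4 (hb.of_ln e')
    obtain ⟨r, s, rfl, rfl, h8⟩ : ∃ r s : Fin 72, lget 0 r oE6 = a ∧ lget 0 s oE6 = b ∧ RE6.pair r s = -1 := by
      rcases liftF4 a b h5 (e' ▸ h5) (by rw [← e', h5, h3] at h2; omega) with h8 | h8
      exacts [⟨_, _, f.sec a, f.sec b, h8⟩, ⟨_, _, f.sec a, (f.ρ _).trans (f.sec b), h8⟩]
    have h9 : RE6.α (RE6.refl r s) = RE6.α r + RE6.α s := by rw [α_refl, h8]; simp [add_comm]
    obtain rfl := mF4.α_inj ((f.add h9).trans e.symm)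
    intro g hg
    obtain ⟨a, ha, b, hb, e⟩ := f.gen h n base_E6.comm (fun r s => (twoE6 r s).1) (mt (f.lg _).2 h4)
      (mt (f.lg _).2 h7) (mt (f.lg _).2 hc) h9 (g := g) ⟨hg, g.2⟩
    rw [show g = ⁅(⟨a, ha.2⟩ : KE6 K q), ⟨b, hb.2⟩⁆ from Subtype.ext e.symm]
    exact Subgroup.commutator_mem_commutator ha.1 hb.1
  · have h2 := injective_of_isIrreducible hρ (by simpa using hk) (e.trans (map_one ρ).symm)
    have h3 := congrArg Subtype.val (((dif_pos (by decide +kernel)).symm.trans h2 :))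
    exact one_ne_zero (faithful_E6.x_inj (h3.trans ((CE6 K).x_zero _).symm))
  have h3 : k ∣ Nat.card (KE6 K q) := (isIrrCharacter_character ρ).degree_dvd_card (by simp)
  have h5 := (h3.mul_left _).trans (card_E6 hK hS (by omega)).dvd
  simp only [finrank_fin_fun, hF] at h2
  by_contra! h7
  obtain ⟨q, rfl⟩ := Nat.exists_eq_add_of_le' h6
  have h4 : (q + 2) ^ 6 - (q + 2) ^ 3 = (q + 2) ^ 3 * ((q + 1) * ((q + 2) ^ 2 + (q + 2) + 1)) :=
    Nat.sub_eq_of_eq_add (by ring)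
  refine arithTE hq ?_ (by simpa [mul_assoc] using h7) (by simpa [mul_assoc] using h5)
  rw [h4]
  rcases h2 with ⟨d, h8, h9⟩ | ⟨-, h8⟩
  · obtain ⟨e, rfl⟩ := Nat.exists_eq_add_of_le (Nat.le_of_mul_le_mul_left
      (show (q + 2) * (2 * (q + 2) ^ 9) ≤ _ from le_of_eq_of_le (by ring) h8) (by omega))
    refine le_trans ?_ (Nat.add_le_add_right h9 2)
    rw [show q + 2 - 1 = q + 1 from rfl]
    ring_nf
    omega
  · refine le_trans (le_of_eq ?_) (Nat.add_le_add_right h8 2)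
    rw [show q + 2 - 1 = q + 1 from rfl]
    simp only [dF4, List.map, List.sum_cons, List.sum_nil]
    ring

end Cfsg.Lib.MD
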