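import Cfsg.Agent.Lib.MD.Tw

/-!
The system of root subgroups of a twisted group.
-/

set_option autoImplicit false
set_option linter.unusedSectionVars false

namespace Cfsg.Lib.MD

open Cfsg.Lib.Chev Cfsg.Lib.Chev.RootSys Cfsg.Lib.Chev.PreSys Cfsg.Lib.Chev.ChevSys Cfsg.Lib.Twisted
  Cfsg.Lib.Twisted.Twist Equiv
open scoped commutatorElement

variable {ι Φ ι' Φ' κ : Type} [Fintype ι] [DecidableEq ι] [Fintype Φ] [Fintype ι'] [DecidableEq ι']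
  [Fintype Φ'] {R : RootSys ι Φ} {R' : RootSys ι' Φ'}
  {K : Type*} [Field K] {G : Type*} [Group G] {C : ChevSys R K G} {T : Sym R κ}

/-- The norm of an element. -/
def nm (S : Twist C T) (τ : G →* G) (g : G) : G := g * S.σ g * τ g

/-- The fixed field. -/
abbrev FF (φ : K →+* K) : Subfield K := φ.eqLocusField (RingHom.id K)

namespace Fold

variable {o : Φ → Φ'} {L : (ι → ℤ) →+ (ι' → ℤ)} {sec : Φ' → Φ} {e : ι' → κ}
  (f : Fold R' T o L sec e) {S : Twist C T} {φ : K →+* K} {ϕ : G →* G} {H : Subgroup G}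
  (h : S.TwF φ ϕ H) {τ : G →* G} {φ' : K → K} (n : TwN S φ τ φ') {r s k : Φ}
include f

theorem mem_rest : s ∈ T.rest r ↔ o s = o r ∧ s ≠ r :=
  and_congr_left' (eq_comm.trans (f.cyc r s)).symm

omit f in
theorem σ_mem (r : Φ) (t : K) : S.σ (C.x r t) ∈ C.XS {T.ρ r} :=
  S.σ_mem_XS (A := {r}) (B := {T.ρ r}) (fun s (h : s = r) => congrArg T.ρ h) (C.x_mem (S := {r}) rfl t)

include n

theorem tail_mem (hr : T.ρ r ≠ r) (t : K) : S.σ (C.x r t) * τ (C.x r t) ∈ C.XS (T.rest r) :=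
  mul_mem (C.XS_mono (fun s hs => f.mem_rest.2 (by rw [hs]; exact ⟨f.ρ r, hr⟩)) (σ_mem r t))
    (C.XS_mono (fun s hs => f.mem_rest.2 ⟨by rw [hs.1, f.ρ, f.ρ], hs.2⟩) (n.mem r hr t))

theorem comm_nm (hr : T.ρ r ≠ r) (hs : T.ρ s ≠ s) (h0 : o s ≠ R'.neg (o r))
    (od : ∀ r' s' m, o r' = o r → o s' = o s → R.α m = R.α r' + R.α s' →
      (r' = r ↔ s' = s) ∧ (r' = T.ρ r ↔ s' = T.ρ s)) (t u : K) :
    ⁅nm S τ (C.x r t), nm S τ (C.x s u)⁆ = nm S τ ⁅C.x r t, C.x s u⁆ := by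
  have m0 : ∀ r t, C.x r t ∈ C.XS {r} := fun r t => C.x_mem (S := {r}) rfl t
  have o1 : ∀ r, ∀ s ∈ ({T.ρ r} : Set Φ), o s = o r := fun r s e => by rw [e, f.ρ]
  have o2 : ∀ r, ∀ s ∈ {s | s = T.ρ (T.ρ r) ∧ s ≠ r}, o s = o r := fun r s e => by rw [e.1, f.ρ, f.ρ]
  have o0 : ∀ r, ∀ s ∈ ({r} : Set Φ), o s = o r := fun r s e => congrArg o e
  have k : ∀ {A B : Set Φ} {a b : G}, (∀ x ∈ A, o x = o r) → (∀ y ∈ B, o y = o s) →
      (∀ x ∈ A, ∀ y ∈ B, ¬ ((x = r ↔ y = s) ∧ (x = T.ρ r ↔ y = T.ρ s))) → a ∈ C.XS A → b ∈ C.XS B →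
      Commute a b := fun h1 h2 h3 => commute_XS f.ln fun x hx y hy =>
    ⟨fun e => h0 (by rw [← h2 y hy, e, f.neg, h1 x hx]),
      fun m e => h3 x hx y hy (od x y m (h1 x hx) (h2 y hy) e)⟩
  have c : ∀ {r : Φ} {A B : Set Φ} {a b : G}, (∀ x ∈ A, o x = o r) → (∀ y ∈ B, o y = o r) →
      a ∈ C.XS A → b ∈ C.XS B → Commute a b := fun h1 h2 ha hb =>
    f.commute (C.XS_mono h1 ha) (C.XS_mono h2 hb)
  have i1 := T.ρ.injective.ne hr
  have i2 := T.ρ.injective.ne hs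
  rw [nm, nm, nm, comm_two, comm_two, map_commutatorElement, map_commutatorElement]
  · exact c (o0 r) (o1 r) (m0 r t) (σ_mem r t)
  · exact k (o0 r) (o1 s) (by rintro _ rfl _ rfl; tauto) (m0 r t) (σ_mem s u)
  · exact (k (o1 r) (o0 s) (by rintro _ rfl _ rfl; tauto) (σ_mem r t) (m0 s u)).symm
  · exact c (o0 s) (o1 s) (m0 s u) (σ_mem s u)
  · exact (c (o0 r) (o2 r) (m0 r t) (n.mem r hr t)).mul_left (c (o1 r) (o2 r) (σ_mem r t) (n.mem r hr t))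
  · exact (k (o0 r) (o2 s) (by rintro _ rfl _ ⟨rfl, _⟩; tauto) (m0 r t) (n.mem s hs u)).mul_left
      (k (o1 r) (o2 s) (by rintro _ rfl _ ⟨rfl, _⟩; tauto) (σ_mem r t) (n.mem s hs u))
  · exact (k (o2 r) (o0 s) (by rintro _ ⟨rfl, _⟩ _ rfl; tauto) (n.mem r hr t) (m0 s u)).symm.mul_left
      (k (o2 r) (o1 s) (by rintro _ ⟨rfl, _⟩ _ rfl; tauto) (n.mem r hr t) (σ_mem s u)).symm
  · exact (c (o0 s) (o2 s) (m0 s u) (n.mem s hs u)).mul_left (c (o1 s) (o2 s) (σ_mem s u) (n.mem s hs u))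

include h

theorem nm_mem (hr : T.ρ r ≠ r) (t : K) : nm S τ (C.x r t) ∈ C.XS {s | o s = o r} ⊓ H := by
  have : nm S τ (C.x r t) ∈ C.XS {s | o s = o r} := by
    rw [nm, mul_assoc]
    exact mul_mem (C.x_mem (S := {s | o s = o r}) rfl t)
      (C.XS_mono (fun s hs => (f.mem_rest.1 hs).1) (f.tail_mem n hr t))
  exact ⟨this, f.mem_of_fix h this (n.fix r hr t)⟩

omit f n in
theorem eq_one_rest {y : G} (hy : y ∈ C.XS (T.rest r)) (e : y ∈ S.Fix) : y = 1 := by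
  obtain ⟨w, hw, i, rfl⟩ := h.exists_conj r
  obtain ⟨g, h1, -, c, hc, -⟩ := h.exists_acts hw
  have h2 := h.tw.le_fix h1
  simpa [mul_assoc, inv_mul_eq_one] using h.eq_one_of_rest (isPos_simple i) (hc.inv_conj_mem
    (fun s => (Sym.rest_iff hw).1) hy) (mul_mem (mul_mem (inv_mem h2) e) h2)

theorem exists_nm (hr : T.ρ r ≠ r) {g : G} (hg : g ∈ C.XS {s | o s = o r} ⊓ H) :
    ∃ t, g = nm S τ (C.x r t) := by
  obtain ⟨a, ha, y, hy, rfl⟩ := C.exists_mul_of_mem_XS (f.closed_sub fun _ h => h)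
    (fun s hs => f.cv_pos hs) (· = r) hg.1
  obtain ⟨t, rfl⟩ := C.mem_XS_singleton.1 (C.XS_mono (T := {r}) (fun _ h => h.2) ha)
  have := eq_one_rest h (mul_mem (inv_mem (f.tail_mem n hr t))
    (C.XS_mono (fun s hs => f.mem_rest.2 hs) hy)) (by
      simpa [mul_assoc] using mul_mem (inv_mem (n.fix r hr t)) (h.tw.le_fix hg.2))
  exact ⟨t, by rw [nm, mul_assoc, inv_mul_eq_one.1 this]⟩

theorem nm_inj (hr : T.ρ r ≠ r) {t u : K} (e : nm S τ (C.x r t) = nm S τ (C.x r u)) : t = u := by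
  rw [nm, nm, mul_assoc, mul_assoc, ← eq_mul_inv_iff_mul_eq, mul_assoc, ← inv_mul_eq_iff_eq_mul,
    ← C.x_sub] at e
  have := (h.tw.faithful.XS_inf_XS (isClosed_singleton r) (f.closed_sub fun s hs => (f.mem_rest.1 hs).1)
    (fun s hs => f.cv_pos (congrArg o hs)) fun s hs => f.cv_pos (f.mem_rest.1 hs).1).le
    (Subgroup.mem_inf.2 ⟨C.x_mem (S := {r}) rfl (t - u),
      e ▸ mul_mem (f.tail_mem n hr u) (inv_mem (f.tail_mem n hr t))⟩)
  rw [show {r} ∩ T.rest r = ∅ from Set.eq_empty_of_forall_notMem fun s hs => hs.2.2 hs.1, C.XS_empty,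
    Subgroup.mem_bot, ← C.x_zero r] at this
  exact sub_eq_zero.1 (h.tw.faithful.x_inj this)

omit n in
theorem mem_fix_iff (hr : T.ρ r = r) {g : G} :
    g ∈ C.XS {s | o s = o r} ⊓ H ↔ ∃ t, φ t = t ∧ C.x r t = g := by
  refine ⟨fun hg => ?_, ?_⟩
  · obtain ⟨t, rfl⟩ := C.mem_XS_singleton.1 (C.XS_mono (T := {r}) (fun _ => f.eq_of_fix hr) hg.1)
    exact ⟨t, h.tw.faithful.x_inj ((h.σ_x hr t).symm.trans (h.tw.le_fix hg.2)), rfl⟩
  · rintro ⟨t, ht, rfl⟩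
    exact ⟨C.x_mem (S := {s | o s = o r}) rfl t, h.x_mem hr ht⟩

omit n in
theorem α_ρ (e : R.α k = R.α r + R.α s) : R.α (T.ρ k) = R.α (T.ρ r) + R.α (T.ρ s) := by
  simpa using (h.aut.comb (k := k) (r := r) (s := s) (i := 1) (j := 1)).2 (by simpa using e)

omit n h in
theorem ne_neg (e : R.α k = R.α r + R.α s) : o s ≠ R'.neg (o r) := fun e' =>
  R'.α_ne_zero (o k) (by rw [f.add e, e', R'.α_neg, add_neg_cancel])

variable {T' : ChevTab R} (hT : T'.StrongComm C.x)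
include hT

theorem nd {β : Φ} (hβ : T.ρ β = β) (e : R.α β = R.α r + R.α s) {a : G}
    (ha : a ∈ C.XS {k | o k = o r} ⊓ H) (h1 : a ≠ 1) {t : K} (ht : φ t = t) :
    ∃ b ∈ C.XS {k | o k = o s} ⊓ H, ⁅a, b⁆ = C.x β t := by
  obtain ⟨N, h2, h3⟩ := comm_add hT f.ln e
  have e' := f.α_ρ h e
  rw [hβ] at e'
  by_cases hr : T.ρ r = r
  · obtain ⟨u, hu, rfl⟩ := (f.mem_fix_iff h hr).1 ha
    have h4 : u ≠ 0 := by rintro rfl; simp at h1
    have h5 : φ N = N := by rcases mul_self_eq_one_iff.1 h2 with rfl | rfl <;> simp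
    refine ⟨_, (f.mem_fix_iff h (R.α_inj (add_left_cancel (e'.symm.trans (hr.symm ▸ e))))).2
      ⟨N * u⁻¹ * t, by simp [h5, hu, ht], rfl⟩, (h3 _ _).trans (congrArg _ ?_)⟩
    field_simp
    linear_combination t * h2
  have hs : T.ρ s ≠ s := fun hs => hr (R.α_inj (add_right_cancel (e'.symm.trans (hs.symm ▸ e))))
  obtain ⟨u, rfl⟩ := f.exists_nm h n hr ha
  have h4 : u ≠ 0 := by rintro rfl; simp [nm] at h1
  obtain ⟨z, rfl⟩ := n.tr t ht
  refine ⟨_, f.nm_mem h n hs (N * u⁻¹ * z), ?_⟩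
  rw [f.comm_nm n hr hs (f.ne_neg e), h3, show N * u * (N * u⁻¹ * z) = z by
    field_simp; linear_combination z * h2, nm, h.σ_x hβ, n.eq β hβ, C.x_add, C.x_add]
  intro r' s' m a b c
  obtain rfl := f.eq_of_fix (s := m) hβ (R'.α_inj (by rw [f.add c, f.add e, a, b]))
  have k : ∀ {x y}, R.α m = R.α x + R.α y → (r' = x ↔ s' = y) := fun e =>
    ⟨fun e' => R.α_inj (add_left_cancel (c.symm.trans (e' ▸ e))),
      fun e' => R.α_inj (add_right_cancel (c.symm.trans (e' ▸ e)))⟩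
  exact ⟨k e, k e'⟩

theorem gen (two : ∀ r s, o s = o r → s = r ∨ s = T.ρ r) (hr : T.ρ r ≠ r) (hs : T.ρ s ≠ s)
    (hk : T.ρ k ≠ k) (e : R.α k = R.α r + R.α s) {g : G} (hg : g ∈ C.XS {m | o m = o k} ⊓ H) :
    ∃ a ∈ C.XS {m | o m = o r} ⊓ H, ∃ b ∈ C.XS {m | o m = o s} ⊓ H, ⁅a, b⁆ = g := by
  obtain ⟨N, h2, h3⟩ := comm_add hT f.ln e
  obtain ⟨t, rfl⟩ := f.exists_nm h n hk hg
  refine ⟨_, f.nm_mem h n hr N, _, f.nm_mem h n hs t, ?_⟩
  rw [f.comm_nm n hr hs (f.ne_neg e), h3, h2, one_mul]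
  intro r' s' m a b c
  have e' := f.α_ρ h e
  have k' : ∀ {x y}, R.α m = R.α x + R.α y → (r' = x ↔ s' = y) := fun e =>
    ⟨fun e' => R.α_inj (add_left_cancel (c.symm.trans (e' ▸ e))),
      fun e' => R.α_inj (add_right_cancel (c.symm.trans (e' ▸ e)))⟩
  have h4 := two r r' a
  have h5 := two s s' b
  have h6 : ¬ (r' = r ∧ r' = T.ρ r) := fun h => hr (h.2.symm.trans h.1)
  have h7 : ¬ (s' = s ∧ s' = T.ρ s) := fun h => hs (h.2.symm.trans h.1)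
  obtain rfl | rfl := two k m (R'.α_inj (by rw [f.add c, f.add e, a, b]))
  · have := k' e
    tauto
  · have := k' e'
    tauto

open Classical in
/-- The root subgroups of the twisted group. -/
noncomputable def rg {d : ℕ} (hd : Nat.card K = Nat.card (FF φ) ^ d) (ee : Φ' → ℕ)
    (h1 : ∀ a, Lg R' a → ee a = 1) (h2 : ∀ a, ¬ Lg R' a → ee a = d) : RG R' (FF φ) H where
  X a := (C.XS {r | o r = a}).subgroupOf H
  x a t := if e : T.ρ (sec a) = sec a then ⟨C.x (sec a) t, h.x_mem e t.2⟩ else 1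
  e := ee
  x_add β hβ t u := by
    have := (f.lg (sec β)).1 (by rwa [f.sec])
    simp only [dif_pos this]
    exact Subtype.ext (C.x_add _ _ _).symm
  mem_X β hβ g := by
    have := (f.lg (sec β)).1 (by rwa [f.sec])
    have h3 := f.mem_fix_iff h this (g := g)
    simp only [dif_pos this, f.sec, Subgroup.mem_inf, g.2, and_true] at h3 ⊢
    rw [Subgroup.mem_subgroupOf, h3]
    exact ⟨fun ⟨t, a, b⟩ => ⟨⟨t, a⟩, Subtype.ext b⟩, fun ⟨t, a⟩ => ⟨t, t.2, congrArg Subtype.val a⟩⟩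
  e_lg := h1
  card_X a := by
    obtain ⟨r, rfl⟩ : ∃ r, o r = a := ⟨_, f.sec a⟩
    rw [← Subgroup.inf_subgroupOf_right,
      Nat.card_congr (Subgroup.subgroupOfEquivOfLe inf_le_right).toEquiv]
    by_cases hr : T.ρ r = r
    · rw [h1 _ ((f.lg r).2 hr), pow_one]
      refine card_eq_of_param (f := fun t : FF φ => C.x r t)
        (fun t u e => Subtype.ext (h.tw.faithful.x_inj e)) fun g => (f.mem_fix_iff h hr).trans ?_
      exact ⟨fun ⟨t, a, b⟩ => ⟨⟨t, a⟩, b.symm⟩, fun ⟨t, a⟩ => ⟨t, t.2, a.symm⟩⟩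
    · rw [h2 _ (mt (f.lg r).1 hr), ← hd]
      exact card_eq_of_param (f := fun t => nm S τ (C.x r t)) (fun t u => f.nm_inj h n hr)
        fun g => ⟨f.exists_nm h n hr, fun ⟨t, e⟩ => e ▸ f.nm_mem h n hr t⟩
  comm a b hab x hx y hy M hM := by
    obtain ⟨z, hz, e⟩ := f.comm h hab (M := M.map H.subtype) ⟨hx, x.2⟩ ⟨hy, y.2⟩
      fun k hk g hg => ⟨⟨g, hg.2⟩, hM k hk hg.1, rfl⟩
    rwa [show z = ⁅x, y⁆ from Subtype.ext e] at hz
  nd β a b hβ e x hx h3 t := by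
    have h4 := (f.lg (sec β)).1 (by rwa [f.sec])
    obtain ⟨s, hs⟩ := (lg_of f.ln (sec β)).exists_pt (r := sec a) (by
      rw [f.pair _ h4, f.sec, f.sec]; exact hβ.pair_of_add e)
    have h5 := f.add hs
    rw [f.sec, f.sec] at h5
    obtain rfl := R'.α_inj (add_left_cancel (h5.symm.trans e))
    obtain ⟨y, hy, h6⟩ := f.nd h n hT h4 hs (a := x) ⟨by rw [f.sec]; exact hx, x.2⟩
      (fun e => h3 (Subtype.ext e)) t.2
    exact ⟨⟨y, hy.2⟩, hy.1, by rw [dif_pos h4]; exact Subtype.ext h6⟩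
  act i := by
    obtain ⟨g, hg, v, c, h3, h4⟩ := f.lift h (R'.sref_mem_W i)
    exact ⟨⟨g, hg⟩, fun r a => acts_iff h3 (fun s => by simp [h4]) a⟩
  tor β hβ c hc := by
    have h3 := (f.lg (sec β)).1 (by rwa [f.sec])
    obtain ⟨γ, h4, h5⟩ := f.tor _ h3
    have h6 : (c : K) ≠ 0 := fun e => hc (Subtype.ext e)
    have h7 : T.ρ (R.neg γ) = R.neg γ := by rw [T.ρ_neg, h4]
    have h8 : φ c = c := c.2
    refine ⟨⟨C.h γ (Units.mk0 c h6), C.h_def γ _ ▸ mul_mem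
      (n_mem_of_cf (h.x_mem h4 h8) (h.x_mem h7 (by simp [h8])))
      (inv_mem (n_mem_of_cf (h.x_mem h4 (by simp)) (h.x_mem h7 (by simp))))⟩,
      fun r a => acts_iff (C.acts_h γ _) (fun s => by simp) a, fun t => ?_⟩
    rw [dif_pos h3, dif_pos h3]
    refine Subtype.ext ((C.h_conj _ _ _ _).trans ?_)
    simp [h5]

end Fold

end Cfsg.Lib.MD
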